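import Cfsg.Agent.MiX.Base
import Cfsg.Agent.H18.MdM
import Cfsg.Agent.H12.DecD
import Cfsg.Agent.H28.Elu20

/-!
Invariants of the geometric subgroups of `GL₃(F)`.
-/

set_option autoImplicit false

namespace Cfsg.Agent.MiU

open Cfsg.Geo Matrix Cfsg.Agent.H18 Cfsg.Agent.H18.Mi Module

variable {F : Type*} [Field F] {H M : Subgroup (GL (Fin 3) F)}

/-- fixes a line -/
def Red (H : Subgroup (GL (Fin 3) F)) : Prop :=
  ∃ w : Fin 3 → F, w ≠ 0 ∧ ∀ g ∈ H, ∃ c : F, g.1 *ᵥ w = c • w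

theorem red_of_line {W : Submodule F (Fin 3 → F)} (h0 : W ≠ ⊥) (h1 : finrank F W ≤ 1)
    (hH : H ≤ subspaceStabilizer W) : Red H := by
  obtain ⟨w, hw, h2⟩ := W.ne_bot_iff.mp h0
  refine ⟨w, h2, fun g hg => ?_⟩
  have h3 : finrank F W = 1 := le_antisymm h1 (Submodule.one_le_finrank_iff.mpr h0)
  obtain ⟨c, hc⟩ := (finrank_eq_one_iff_of_nonzero' (K := F) (⟨w, hw⟩ : W) (by simpa using h2)).mp h3
    ⟨_, (mem_subspaceStabilizer.mp (hH hg) w).mp hw⟩
  exact ⟨c, (congrArg Subtype.val hc).symm⟩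

theorem Red.tr (h : Red H) (B : GL (Fin 3) F) (hM : ∀ X ∈ M, B * X * B⁻¹ ∈ H) : Red M := by
  obtain ⟨w, h0, h⟩ := h
  refine ⟨(B⁻¹).1 *ᵥ w, mt (mulVec_eq_zero_iff _ _).mp h0, fun g hg => ?_⟩
  obtain ⟨c, hc⟩ := h _ (hM g hg)
  refine ⟨c, ?_⟩
  rw [← mulVec_smul, ← hc]
  simp [mulVec_mulVec, ← Matrix.mul_assoc]

theorem Red.not_irr (h : Red H) : ¬ Irr H := fun hi => by
  obtain ⟨w, h0, h⟩ := h
  rcases hi (F ∙ w) (fun g hg v hv => by
    obtain ⟨a, rfl⟩ := Submodule.mem_span_singleton.mp hv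
    obtain ⟨c, hc⟩ := h g hg
    rw [mulVec_smul, hc]
    exact Submodule.smul_mem _ _ (Submodule.smul_mem _ _ (Submodule.mem_span_singleton_self w))) with h1 | h1
  · exact h0 (by simpa using h1)
  · have := finrank_span_singleton (K := F) h0
    rw [h1] at this
    simp at this

/-- imprimitive -/
def Imp (H : Subgroup (GL (Fin 3) F)) : Prop :=
  ∃ π : H →* Equiv.Perm (Fin 3), (∀ g g' : H, π g = 1 → π g' = 1 → g * g' = g' * g) ∧
    (∀ g : H, π g = 1 → ∃ w : Fin 3 → F, w ≠ 0 ∧ ∃ c : F, g.1.1 *ᵥ w = c • w) ∧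
    (∀ g : H, π g = 1 → (g.1.1 - 1) ^ 3 = 0 → g = 1) ∧
    ∀ g : H, g.1 ∈ scalars (Fin 3) F → π g = 1

theorem imp_of_dec {D : Fin 3 → Submodule F (Fin 3 → F)} (hD : IsMDecomposition 1 D)
    (hH : H ≤ decompositionStabilizer D) : Imp H := by
  obtain ⟨b, hb⟩ := H12.exists_basis_of_dec hD
  have hi : Function.Injective D := fun i j hij => by
    by_contra h
    have h1 : b i ∈ D j := hij ▸ (hb i ▸ Submodule.mem_span_singleton_self _)
    rw [hb j] at h1
    obtain ⟨c, hc⟩ := Submodule.mem_span_singleton.mp h1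
    have := congrArg (fun v => b.repr v i) hc
    simp [Finsupp.single_apply, Ne.symm h] at this
  have h1 : ∀ g : H, ∃ σ : Equiv.Perm (Fin 3), ∀ i, (D i).map (Matrix.toLin' g.1.1) = D (σ i) :=
    fun g => hH g.2
  choose π hπ using h1
  have h2 : ∀ (g : H) (σ : Equiv.Perm (Fin 3)), (∀ i, (D i).map (Matrix.toLin' g.1.1) = D (σ i)) →
      π g = σ := fun g σ h => Equiv.ext fun i => hi ((hπ g i).symm.trans (h i))
  have h3 : ∀ g : H, π g = 1 → ∀ i, ∃ c : F, g.1.1 *ᵥ b i = c • b i := fun g hg i => by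
    have h4 := hπ g i
    rw [hg, Equiv.Perm.one_apply, hb i] at h4
    obtain ⟨c, hc⟩ := Submodule.mem_span_singleton.mp
      (h4.le ⟨_, Submodule.mem_span_singleton_self _, rfl⟩)
    exact ⟨c, hc.symm⟩
  refine ⟨MonoidHom.mk' π fun g g' => h2 _ _ fun i => ?_, fun g g' hg hg' => ?_, fun g hg => ?_,
    fun g hg h0 => ?_, fun g hg => h2 _ _ fun i => ?_⟩
  · rw [Subgroup.coe_mul, Units.val_mul, Matrix.toLin'_mul, Submodule.map_comp, hπ, hπ]; rfl
  · refine Subtype.ext (Units.ext (H28.mat_ext_basis b fun i => ?_))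
    obtain ⟨c, hc⟩ := h3 g hg i
    obtain ⟨c', hc'⟩ := h3 g' hg' i
    simp only [Subgroup.coe_mul, Units.val_mul, ← mulVec_mulVec, hc, hc', mulVec_smul, smul_smul,
      mul_comm]
  · exact ⟨b 0, b.ne_zero 0, h3 g hg 0⟩
  · refine Subtype.ext (Units.ext (H28.mat_ext_basis b fun i => ?_))
    obtain ⟨c, hc⟩ := h3 g hg i
    have h4 : (g.1.1 - 1) *ᵥ b i = (c - 1) • b i := by rw [sub_mulVec, hc, one_mulVec, sub_smul, one_smul]
    have h5 := congrArg (· *ᵥ b i) h0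
    simp only [pow_succ, pow_zero, one_mul, ← mulVec_mulVec, h4, mulVec_smul, smul_smul, zero_mulVec,
      smul_eq_zero, mul_eq_zero, b.ne_zero i, or_false, or_self] at h5
    rw [hc, sub_eq_zero.mp h5]; simp
  · obtain ⟨c, hc⟩ := (mem_scalars_iff _).mp hg
    rw [hc, Equiv.Perm.one_apply]
    ext v
    simp only [Submodule.mem_map, toLin'_apply, smul_mulVec, one_mulVec]
    exact ⟨by rintro ⟨y, hy, rfl⟩; exact Submodule.smul_mem _ _ hy, fun hv =>
      ⟨(c⁻¹ : Fˣ).1 • v, Submodule.smul_mem _ _ hv, by simp [smul_smul]⟩⟩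

theorem Imp.card_le (h : Imp H) {S : Type*} [Fintype S] {u : S → GL (Fin 3) F} (hu : ∀ s, u s ∈ H)
    (h1 : ∀ s t, (((u s)⁻¹ * u t).1 - 1) ^ 3 = 0) (h2 : Function.Injective u) : Fintype.card S ≤ 6 := by
  obtain ⟨π, -, -, h3, -⟩ := h
  have h6 : Fintype.card (Equiv.Perm (Fin 3)) = 6 := by rw [Fintype.card_perm, Fintype.card_fin]; rfl
  rw [← h6]
  refine Fintype.card_le_of_injective (fun s => π ⟨u s, hu s⟩) fun s t hst => h2 ?_
  have h4 : π ⟨u s, hu s⟩ = π ⟨u t, hu t⟩ := hst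
  have h5 : π ⟨(u s)⁻¹ * u t, mul_mem (inv_mem (hu s)) (hu t)⟩ = 1 := by
    have : (⟨(u s)⁻¹ * u t, mul_mem (inv_mem (hu s)) (hu t)⟩ : H) = (⟨u s, hu s⟩ : H)⁻¹ * ⟨u t, hu t⟩ := rfl
    rw [this, map_mul, map_inv, h4, inv_mul_cancel]
  have h7 : (u s)⁻¹ * u t = 1 := congrArg Subtype.val (h3 _ h5 (h1 s t))
  exact inv_mul_eq_one.mp h7

section fld
variable [Fintype F] {K K' : Subalgebra F (Matrix (Fin 3) (Fin 3) F)}

theorem cube_mem (hK : IsFieldSubalgebra 3 K) {g : GL (Fin 3) F} (hg : g ∈ subalgebraNormalizer K) :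
    (g ^ 3).1 ∈ K := by
  refine mem_of_commute_field (by simpa using hK) fun k hk => ?_
  let _ : Field K := (isField_of_inv K hK.comm hK.inv).toField
  have h1 := mem_subalgebraNormalizer.mp hg
  let φ : K →ₐ[F] K := ((cj g).toAlgHom.comp K.val).codRestrict K fun x => (h1 _).mp x.2
  let e : K ≃ₐ[F] K := AlgEquiv.ofBijective φ (Finite.injective_iff_bijective.mp φ.toRingHom.injective)
  have h2 : e ^ 3 = 1 := by
    have := IsGalois.card_aut_eq_finrank F K
    rw [hK.finrank_eq] at this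
    have h3 := pow_card_eq_one' (x := e)
    rwa [this] at h3
  have h3 := congrArg (fun x : K ≃ₐ[F] K => (x ⟨k, hk⟩).1) h2
  rw [← cj_eq_iff, pow_three, cj_mul, cj_mul]
  rw [pow_three] at h3
  exact h3

theorem scalar_of_eig (hK : IsFieldSubalgebra 3 K) {x : Matrix (Fin 3) (Fin 3) F} (hx : x ∈ K)
    {w : Fin 3 → F} (h0 : w ≠ 0) {c : F} (h : x *ᵥ w = c • w) : x = c • 1 := by
  by_contra h1
  obtain ⟨y, hy, h2⟩ := hK.inv (x - c • 1) (sub_mem hx (K.smul_mem K.one_mem c)) (sub_ne_zero.mpr h1)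
  rw [hK.comm _ (sub_mem hx (K.smul_mem K.one_mem c)) _ hy] at h2
  apply h0
  rw [← one_mulVec w, ← h2, ← mulVec_mulVec, sub_mulVec, h, smul_mulVec, one_mulVec, sub_self, mulVec_zero]

theorem inv_scalar (hK : IsFieldSubalgebra 3 K) {g : GL (Fin 3) F} (hg : g ∈ subalgebraNormalizer K)
    (h : g * g = 1) : g ∈ scalars (Fin 3) F := by
  have h1 := cube_mem hK hg
  rw [pow_three, h, mul_one] at h1
  obtain ⟨d, hd⟩ := scalar_of_sq_of_odd hK (by decide) h1 (c := 1) (by rw [← Units.val_mul, h]; simp)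
  exact mem_scalars_of_eq_smul hd

theorem fld_eq (hK : IsFieldSubalgebra 3 K) (hK' : IsFieldSubalgebra 3 K') {x : Matrix (Fin 3) (Fin 3) F}
    (hx : x ∈ K) (hx' : x ∈ K') (h : ∀ c : F, x ≠ c • 1) : K = K' := by
  have key : ∀ {K : Subalgebra F (Matrix (Fin 3) (Fin 3) F)}, IsFieldSubalgebra 3 K → x ∈ K →
      K = Algebra.adjoin F {x} := fun {K} hK hx => by
    let _ : Field K := (isField_of_inv K hK.comm hK.inv).toField
    have h1 : IntermediateField.adjoin F {(⟨x, hx⟩ : K)} = ⊤ := by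
      have := IntermediateField.isSimpleOrder_of_finrank_prime F K (by rw [hK.finrank_eq]; decide)
      refine (eq_bot_or_eq_top _).resolve_left fun h2 => ?_
      have h3 := IntermediateField.mem_adjoin_simple_self F (⟨x, hx⟩ : K)
      rw [h2, IntermediateField.mem_bot] at h3
      obtain ⟨c, hc⟩ := h3
      exact h c (by rw [← Algebra.algebraMap_eq_smul_one]; exact (congrArg Subtype.val hc).symm)
    have h2 := IntermediateField.adjoin_simple_toSubalgebra_of_isAlgebraic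
      (Algebra.IsAlgebraic.isAlgebraic (R := F) (⟨x, hx⟩ : K))
    rw [h1] at h2
    have h3 := congrArg (Subalgebra.map K.val) h2
    rw [AlgHom.map_adjoin_singleton, IntermediateField.top_toSubalgebra, Algebra.map_top,
      Subalgebra.range_val] at h3
    exact h3
  exact (key hK hx).trans (key hK' hx').symm

end fld

end Cfsg.Agent.MiU
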