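import Cfsg.Agent.MiU.A
import Cfsg.Agent.H12.Lin

/-!
Invariants of subfield groups, normalisers of extraspecial groups and small almost simple groups.
-/

set_option autoImplicit false

namespace Cfsg.Agent.MiU

open Cfsg.Geo Matrix Cfsg.Agent.H18 Cfsg.Agent.H18.Mi Module

variable {F : Type*} [Field F] {H M R : Subgroup (GL (Fin 3) F)}

section rat
variable {E : Subfield F} {P g h : GL (Fin 3) F} {X : Matrix (Fin 3) (Fin 3) F}

/-- matrices rational over a subfield in the basis `P` -/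
def rat (E : Subfield F) (P : GL (Fin 3) F) : Subring (Matrix (Fin 3) (Fin 3) F) :=
  (E.toSubring.matrix).comap (cj P⁻¹).toRingEquiv.toRingHom

theorem mem_rat : X ∈ rat E P ↔ ∀ i j, cj P⁻¹ X i j ∈ E := Iff.rfl

theorem rat_smul {c : F} (hc : c ∈ E) (hX : X ∈ rat E P) : c • X ∈ rat E P := fun i j => by
  change cj P⁻¹ (c • X) i j ∈ E
  rw [map_smul]; exact mul_mem hc (hX i j)

theorem mem_of_rat {c : F} (hX : X ∈ rat E P) (h0 : X ≠ 0) (h : c • X ∈ rat E P) : c ∈ E := by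
  obtain ⟨i, j, h1⟩ : ∃ i j, cj P⁻¹ X i j ≠ 0 := by
    by_contra! h1
    exact h0 ((map_eq_zero_iff _ (cj P⁻¹).injective).mp (Matrix.ext h1))
  have h2 := mem_rat.mp h i j
  rw [map_smul, Matrix.smul_apply, smul_eq_mul] at h2
  simpa [h1] using div_mem h2 (mem_rat.mp hX i j)

theorem sub_iff : g ∈ subfieldSubgroup E P ↔ ∃ ζ : F, ζ ≠ 0 ∧ ζ • g.1 ∈ rat E P := by
  simp only [mem_subfieldSubgroup_iff, mem_rat, map_smul, Matrix.smul_apply, smul_eq_mul]

theorem rat_trace (hX : X ∈ rat E P) : X.trace ∈ E := by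
  rw [← trace_cj P⁻¹]; exact sum_mem fun i _ => hX i i

theorem rat_det (hX : X ∈ rat E P) : X.det ∈ E := by
  have := det_mem_subfield (mem_rat.mp hX)
  rwa [cj_apply, det_units_conj] at this

theorem rat_of_smul {c : F} (hc : c ∈ E) (h0 : c ≠ 0) (hX : c • X ∈ rat E P) : X ∈ rat E P := by
  simpa [smul_smul, h0] using rat_smul (inv_mem hc) hX

theorem rat_cube (hg : g ∈ subfieldSubgroup E P) (h1 : g ∈ specialLinear (Fin 3) F) :
    (g ^ 3).1 ∈ rat E P := by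
  obtain ⟨ζ, h0, h2⟩ := sub_iff.mp hg
  have h3 := rat_det h2
  rw [det_smul, MiX.det_one h1, mul_one, Fintype.card_fin] at h3
  exact rat_of_smul h3 (pow_ne_zero _ h0) (by simpa [smul_pow] using pow_mem h2 3)

theorem rat_comm (hg : g ∈ subfieldSubgroup E P) (hh : h ∈ subfieldSubgroup E P) :
    (g * h * g⁻¹ * h⁻¹).1 ∈ rat E P := by
  have key : ∀ {g : GL (Fin 3) F}, g ∈ subfieldSubgroup E P → ∃ a b : F, a • g.1 ∈ rat E P ∧
      b • (g⁻¹).1 ∈ rat E P ∧ a * b ∈ E ∧ a * b ≠ 0 := fun {g} hg => by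
    obtain ⟨a, h0, h1⟩ := sub_iff.mp hg
    obtain ⟨b, h2, h3⟩ := sub_iff.mp (inv_mem hg)
    refine ⟨a, b, h1, h3, mem_of_rat (P := P) (one_mem _) one_ne_zero ?_, mul_ne_zero h0 h2⟩
    simpa [smul_smul, mul_comm] using mul_mem h1 h3
  obtain ⟨a, b, a1, a2, a3, a4⟩ := key hg
  obtain ⟨c, d, c1, c2, c3, c4⟩ := key hh
  refine rat_of_smul (mul_mem a3 c3) (mul_ne_zero a4 c4) ?_
  convert mul_mem (mul_mem (mul_mem a1 c1) a2) c2 using 1
  simp only [Units.val_mul, smul_mul_assoc, mul_smul_comm, smul_smul]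
  congr 1; ring

theorem pow_unip [Finite F] (h : (X - 1) ^ 3 = 0) {p : ℕ} (hp : p.Prime) [CharP F p] {k : ℕ}
    (hk : 3 ≤ p ^ k) : X ^ p ^ k = 1 := by
  have := Fact.mk hp
  obtain ⟨d, hd⟩ := Nat.exists_eq_add_of_le hk
  rw [← sub_add_cancel X 1, add_pow_char_pow_of_commute _ _ (Commute.one_right _), hd, pow_add, h]
  simp

theorem rat_unip [Finite F] (hg : g ∈ subfieldSubgroup E P) (h : (g.1 - 1) ^ 3 = 0) : g.1 ∈ rat E P := by
  obtain ⟨ζ, h0, h2⟩ := sub_iff.mp hg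
  have := Fintype.ofFinite E
  obtain ⟨p, hp⟩ := CharP.exists F
  obtain ⟨a, h3, h4⟩ := FiniteField.card E p
  have h5 := pow_unip h h3 (k := a * 2) (by
    rw [pow_mul, ← h4]; have := Fintype.one_lt_card (α := E); nlinarith)
  have h6 := pow_mem h2 (p ^ (a * 2 : ℕ))
  rw [smul_pow, h5, pow_mul, ← h4, ← Nat.card_eq_fintype_card, sq, pow_mul, ← frobOf_apply,
    ← frobOf_apply] at h6
  have h7 := (frobOf_eq_iff E _).mpr (mem_of_rat (one_mem _) one_ne_zero h6)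
  exact rat_of_smul ((frobOf_eq_iff E _).mp ((frobOf E).injective ((frobOf E).injective h7))) h0 h2

theorem sub_of_rat (hg : g.1 ∈ rat E P) : g ∈ subfieldSubgroup E P :=
  sub_iff.mpr ⟨1, one_ne_zero, by rwa [one_smul]⟩

end rat

theorem card_conj (B : GL (Fin 3) F) : Nat.card (M.map (MulAut.conj B).toMonoidHom) = Nat.card M :=
  Subgroup.card_map_of_injective (MulAut.conj B).injective

/-- an extraspecial group of order `27` -/
structure R3 (R : Subgroup (GL (Fin 3) F)) : Prop where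
  card : Nat.card R = 27
  cube : ∀ x ∈ R, x ^ 3 = 1
  cen : ∀ y : GL (Fin 3) F, (∀ z ∈ R, z * y = y * z) → y ∈ scalars (Fin 3) F
  comm : ∀ x ∈ R, ∀ y ∈ R, x * y * x⁻¹ * y⁻¹ ∈ scalars (Fin 3) F
  z : ∃ z ∈ R, z ≠ 1 ∧ z ∈ scalars (Fin 3) F
  nab : ∃ x ∈ R, x ∉ scalars (Fin 3) F

theorem r3 (h1 : IsSymplecticTypeGroup 3 R) (h2 : ActsAbsolutelyIrreducibly (matrixSet R))
    (h3 : Nat.card R = 27) (h4 : Nat.card (Subgroup.center R) = 3) : R3 R := by
  have hc : ∀ y : GL (Fin 3) F, (∀ z ∈ R, z * y = y * z) → y ∈ scalars (Fin 3) F := fun y hy =>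
    (scalar_of_absIrr h2 hy).elim fun _ => mem_scalars_of_eq_smul
  have hz : ∀ x : R, x ∈ Subgroup.center R → x.1 ∈ scalars (Fin 3) F := fun x hx =>
    hc _ fun z hz => congrArg Subtype.val (Subgroup.mem_center_iff.mp hx ⟨z, hz⟩)
  have : Finite R := Nat.finite_of_card_ne_zero (by omega)
  have h7 : Nat.card (R ⧸ Subgroup.center R) = 9 := by
    have := (Subgroup.center R).card_eq_card_quotient_mul_card_subgroup
    rw [h3, h4] at this
    omega
  have := Fact.mk Nat.prime_three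
  have h5 := H28.comm_of_dvd_sq (G := R ⧸ Subgroup.center R) (l := 3) (by rw [h7]; rfl)
  have h8 : ∀ x y : R, x * y * x⁻¹ * y⁻¹ ∈ Subgroup.center R := fun x y => by
    rw [← QuotientGroup.eq_one_iff, QuotientGroup.mk_mul, QuotientGroup.mk_mul, QuotientGroup.mk_mul,
      QuotientGroup.mk_inv, QuotientGroup.mk_inv, mul_inv_eq_one, mul_inv_eq_iff_eq_mul]
    exact h5.is_comm.comm _ _
  refine ⟨h3, fun x hx => cube_eq_one h1 hx, hc, fun x hx y hy => hz _ (h8 ⟨x, hx⟩ ⟨y, hy⟩), ?_, ?_⟩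
  · obtain ⟨z, h6⟩ := Subgroup.ne_bot_iff_exists_ne_one.mp
      ((Subgroup.center R).one_lt_card_iff_ne_bot.mp (by omega))
    exact ⟨z.1, z.1.2, fun e => h6 (Subtype.ext (Subtype.ext e)), hz _ z.2⟩
  · by_contra! h6
    have : Subgroup.center R = ⊤ := eq_top_iff.mpr fun x _ => Subgroup.mem_center_iff.mpr fun y =>
      Subtype.ext (scalars_comm (h6 _ x.2) _).symm
    rw [this, Subgroup.card_top] at h4
    omega

namespace R3
variable (h : R3 R) {j : GL (Fin 3) F}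
include h

theorem scalar_of_prime [Finite F] {r : ℕ} (hr : r.Prime) (h5 : 5 ≤ r) (hj : j ∈ subgroupNormalizer R)
    (h1 : j ^ r = 1) : j ∈ scalars (Fin 3) F := by
  have : Finite R := Nat.finite_of_card_ne_zero (by rw [h.card]; decide)
  have := Fact.mk hr
  by_contra h2
  obtain ⟨z, z1, z2, z3⟩ := h.z
  obtain ⟨c, e7, e8, e9⟩ := H28.card_fix_pow h1 (fun x => (Subgroup.mem_normalizer_iff.1 hj x).1)
    Nat.prime_three (a := 3) h.card fun e => h2 (h.cen _ e)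
  have := (R ⊓ Subgroup.centralizer {j}).one_lt_card_iff_ne_bot.2 fun e => z2 ((Subgroup.eq_bot_iff_forall _).1 e z
    ⟨z1, Subgroup.mem_centralizer_singleton_iff.2 (scalars_comm z3 j)⟩)
  have e10 : r ∣ 2 ^ 3 * 3 ^ 2 := by
    rw [e8] at this
    interval_cases c <;> first | omega | exact e9.trans (by decide)
  rcases (Nat.Prime.dvd_mul hr).1 e10 with e | e
  · have := Nat.prime_eq_prime_of_dvd_pow hr Nat.prime_two e; omega
  · have := Nat.prime_eq_prime_of_dvd_pow hr Nat.prime_three e; omega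

theorem eq_one {y : GL (Fin 3) F} (hy : y ∈ R) (h2 : y * y = 1) : y = 1 := by
  have := h.cube y hy
  rwa [pow_three, h2, mul_one] at this

theorem fix_scalar (hj : j ∈ subgroupNormalizer R) (h2 : j * j = 1) (hs : j ∉ scalars (Fin 3) F)
    {c : GL (Fin 3) F} (hc : c ∈ R) (h3 : c * j = j * c) : c ∈ scalars (Fin 3) F := by
  have : Finite R := Nat.finite_of_card_ne_zero (by rw [h.card]; decide)
  have hn := fun x => (Subgroup.mem_normalizer_iff.1 hj x).1
  by_contra h4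
  obtain ⟨z, z1, z2, z3⟩ := h.z
  let B := R ⊓ Subgroup.centralizer {c}
  let A := B ⊓ Subgroup.centralizer {j}
  have : Finite B := Finite.of_injective _ (Subgroup.inclusion_injective (inf_le_left : B ≤ R))
  have : Finite A := Finite.of_injective _ (Subgroup.inclusion_injective (inf_le_left : A ≤ B))
  have a1 : Subgroup.zpowers z ≤ A := Subgroup.zpowers_le_of_mem
    ⟨⟨z1, Subgroup.mem_centralizer_singleton_iff.2 (scalars_comm z3 c)⟩,
      Subgroup.mem_centralizer_singleton_iff.2 (scalars_comm z3 j)⟩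
  have a2 : Nat.card (Subgroup.zpowers z) = 3 := by
    have := Fact.mk Nat.prime_three
    rw [Nat.card_zpowers, orderOf_eq_prime (h.cube z z1) z2]
  have a3 := Subgroup.card_dvd_of_le a1
  have a4 := Subgroup.card_dvd_of_le (inf_le_left : A ≤ B)
  have a5 := Subgroup.card_dvd_of_le (inf_le_left : B ≤ R)
  have a6 : Nat.card B ≠ 27 := fun e => h4 (h.cen _ fun y hy => by
    rw [← Subgroup.eq_of_le_of_card_ge (inf_le_left : B ≤ R) (by rw [e, h.card])] at hy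
    exact Subgroup.mem_centralizer_singleton_iff.1 hy.2)
  have a7 : Nat.card A ≠ 3 := fun e => h4 (Subgroup.zpowers_le_of_mem z3 (by
    rw [Subgroup.eq_of_le_of_card_ge a1 (by rw [e, a2])]
    exact ⟨⟨hc, Subgroup.mem_centralizer_singleton_iff.2 rfl⟩, Subgroup.mem_centralizer_singleton_iff.2 h3⟩))
  have a8 : A = B := Subgroup.eq_of_le_of_card_ge inf_le_left (by
    rw [a2] at a3
    rw [h.card] at a5
    obtain ⟨b, b1, b2⟩ := (Nat.dvd_prime_pow Nat.prime_three (m := 3)).1 a5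
    obtain ⟨a, b3, b4⟩ := (Nat.dvd_prime_pow Nat.prime_three (m := 3)).1 (a4.trans a5)
    rw [b2] at a6 ⊢
    rw [b4] at a3 a7 ⊢
    interval_cases a <;> interval_cases b <;> simp_all)
  refine hs (h.cen _ fun b hb => ?_)
  have b0 := scalars_comm (h.comm c hc b hb)
  have b1 : j * b * j⁻¹ * b⁻¹ ∈ B := ⟨R.mul_mem (hn b hb) (R.inv_mem hb), Subgroup.mem_centralizer_singleton_iff.2 (by
    have e1 : c * (j * b * j⁻¹) = (c * b * c⁻¹ * b⁻¹) * (j * b * j⁻¹) * c := by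
      have e2 : c * j⁻¹ = j⁻¹ * c := by
        rw [eq_inv_mul_iff_mul_eq, ← mul_assoc, ← h3, mul_inv_cancel_right]
      calc c * (j * b * j⁻¹) = j * ((c * b * c⁻¹ * b⁻¹) * b) * (c * j⁻¹) := by
            rw [← mul_assoc, ← mul_assoc, h3]; group
        _ = _ := by rw [e2, ← mul_assoc j, ← b0 j]; group
    calc j * b * j⁻¹ * b⁻¹ * c = (j * b * j⁻¹) * (c * b * c⁻¹ * b⁻¹) * c * (c⁻¹ * (c * b * c⁻¹ * b⁻¹)⁻¹ * b⁻¹ * c) := by group
      _ = c * (j * b * j⁻¹) * (c⁻¹ * ((c * b * c⁻¹ * b⁻¹)⁻¹ * b⁻¹) * c) := by rw [e1, b0]; group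
      _ = _ := by rw [scalars_comm (inv_mem (h.comm c hc b hb))]; group)⟩
  have b2 := b1.1
  rw [← a8] at b1
  have b3 := Subgroup.mem_centralizer_singleton_iff.1 b1.2
  have b4 : j⁻¹ = j := inv_eq_of_mul_eq_one_left h2
  have b5 := h.eq_one b2 (by
    calc j * b * j⁻¹ * b⁻¹ * (j * b * j⁻¹ * b⁻¹) = (j * b * j⁻¹ * b⁻¹ * j) * b * j⁻¹ * b⁻¹ := by group
      _ = (j * j) * b * (j⁻¹ * b⁻¹ * b * j⁻¹) * b⁻¹ := by rw [b3]; group
      _ = 1 := by rw [h2, b4]; simp [h2])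
  rw [mul_inv_eq_one, mul_inv_eq_iff_eq_mul] at b5
  exact b5.symm

theorem inverts (hj : j ∈ subgroupNormalizer R) (h2 : j * j = 1) (hs : j ∉ scalars (Fin 3) F)
    {x : GL (Fin 3) F} (hx : x ∈ R) : x * (j * x * j⁻¹) ∈ scalars (Fin 3) F := by
  have hn := (Subgroup.mem_normalizer_iff.1 hj x).1 hx
  have b4 : j⁻¹ = j := inv_eq_of_mul_eq_one_left h2
  refine h.fix_scalar hj h2 hs (mul_mem hx hn) ?_
  have b0 := scalars_comm (h.comm _ hn x hx)
  have b1 : j * x * j⁻¹ * x * (j * x * j⁻¹)⁻¹ * x⁻¹ ∈ R := mul_mem (mul_mem (mul_mem hn hx) (inv_mem hn)) (inv_mem hx)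
  have b2 : j * (x * (j * x * j⁻¹)) * j⁻¹ = (j * x * j⁻¹ * x * (j * x * j⁻¹)⁻¹ * x⁻¹) * (x * (j * x * j⁻¹)) := by
    calc _ = j * x * j * x * (j⁻¹ * j⁻¹) := by group
      _ = _ := by rw [b4, h2, ← b4]; group
  generalize j * x * j⁻¹ * x * (j * x * j⁻¹)⁻¹ * x⁻¹ = s at b0 b1 b2
  generalize x * (j * x * j⁻¹) = y at b2
  have b3 : s = 1 := h.eq_one b1 (mul_right_cancel (b := y) (by
    calc s * s * y = s * (j * y * j⁻¹) := by rw [b2, mul_assoc]
      _ = j * (s * y) * j⁻¹ := by rw [← mul_assoc, ← mul_assoc, b0]; group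
      _ = (j * j) * y * (j⁻¹ * j⁻¹) := by rw [← b2]; group
      _ = _ := by rw [b4, h2]; simp))
  rw [b3, one_mul, mul_inv_eq_iff_eq_mul] at b2
  exact b2.symm

theorem no_four {k : GL (Fin 3) F} (hj : j ∈ subgroupNormalizer R) (hk : k ∈ subgroupNormalizer R)
    (j2 : j * j = 1) (k2 : k * k = 1) (jk : j * k * (j * k) = 1) (js : j ∉ scalars (Fin 3) F)
    (ks : k ∉ scalars (Fin 3) F) (jks : j * k ∉ scalars (Fin 3) F) : False := by
  obtain ⟨x, hx, h0⟩ := h.nab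
  let π := QuotientGroup.mk' (scalars (Fin 3) F)
  have e : ∀ y, y ∈ scalars (Fin 3) F ↔ π y = 1 := fun y => (QuotientGroup.eq_one_iff y).symm
  have h1 := (e _).mp (h.inverts hj j2 js hx)
  have h2 := (e _).mp (h.inverts hk k2 ks hx)
  have h3 := (e _).mp (h.inverts (mul_mem hj hk) jk jks hx)
  have h4 := congrArg π (h.cube x hx)
  simp only [map_mul, map_inv, map_pow, map_one] at h1 h2 h3 h4
  refine h0 ((e _).mpr ?_)
  generalize π x = a at *
  generalize π j = b at *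
  generalize π k = c at *
  have h5 : c * a * c⁻¹ = a⁻¹ := eq_inv_of_mul_eq_one_right h2
  have h6 : b * a * b⁻¹ = a⁻¹ := eq_inv_of_mul_eq_one_right h1
  have h7 : a * a = 1 := by
    rw [← h3, show b * c * a * (b * c)⁻¹ = b * (c * a * c⁻¹) * b⁻¹ by group, h5,
      show b * a⁻¹ * b⁻¹ = (b * a * b⁻¹)⁻¹ by group, h6, inv_inv]
  rwa [pow_three, h7, mul_one] at h4

end R3

/-- small almost simple -/
def Sp (q : ℕ) (H : Subgroup (GL (Fin 3) F)) : Prop :=
  ∃ (S : Type) (_ : Group S) (φ : H →* S), (∀ g, φ g = 1 → g.1 ∈ scalars (Fin 3) F) ∧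
    ((Nat.card S = 168 ∧ q % 7 ≠ 0) ∨ (Nat.card S = 360 ∧ IsSimpleGroup S ∧ 11 ≤ q))

theorem card_dvd_three [Finite F] (h1 : M ≤ scalars (Fin 3) F) (h2 : M ≤ specialLinear (Fin 3) F) :
    Nat.card M ∣ 3 := by
  have := Fact.mk Nat.prime_three
  have h3 : ∀ g : M, ∃ c : rootsOfUnity 3 F, g.1.1 = c.1.1 • 1 := fun g => by
    obtain ⟨c, hc⟩ := (mem_scalars_iff _).mp (h1 g.2)
    have h4 := MiX.det_one (h2 g.2)
    rw [hc, det_smul, det_one, mul_one, Fintype.card_fin] at h4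
    exact ⟨⟨c, Units.ext h4⟩, hc⟩
  choose c hc using h3
  have h4 := (Nat.card_le_card_of_injective c fun g g' e => Subtype.ext (Units.ext (by rw [hc, hc, e]))).trans
    (card_rootsOfUnity F 3)
  obtain ⟨k, hk⟩ := (IsPGroup.iff_card (p := 3) (G := M)).mp fun g =>
    ⟨1, Subtype.ext (MiX.cube_of_scalar (h1 g.2) (h2 g.2))⟩
  rw [hk] at h4 ⊢
  exact pow_dvd_pow 3 ((Nat.pow_le_pow_iff_right (by decide : 1 < 3)).mp (h4.trans (pow_one 3).ge))

theorem card_dvd_of_hom [Finite F] {S : Type*} [Group S] (φ : H →* S)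
    (hφ : ∀ g, φ g = 1 → g.1 ∈ scalars (Fin 3) F) (h2 : H ≤ specialLinear (Fin 3) F) (A : Subgroup H) :
    Nat.card A ∣ 3 * Nat.card (A.map φ) := by
  have h3 : Nat.card (φ.comp A.subtype).ker ∣ 3 := by
    rw [← Subgroup.card_map_of_injective (f := H.subtype.comp A.subtype)
      (H.subtype_injective.comp A.subtype_injective)]
    refine card_dvd_three ?_ ?_ <;> rintro _ ⟨g, hg, rfl⟩
    exacts [hφ _ hg, h2 g.1.2]
  rw [show A.map φ = (φ.comp A.subtype).range by rw [MonoidHom.range_comp, Subgroup.range_subtype],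
    ← Subgroup.index_ker, ← (φ.comp A.subtype).ker.card_mul_index]
  exact mul_dvd_mul_right h3 _

theorem Sp.card [Finite F] {q : ℕ} (h : Sp q H) (h2 : H ≤ specialLinear (Fin 3) F) :
    (Nat.card H ∣ 504 ∧ q % 7 ≠ 0) ∨ (Nat.card H ∣ 1080 ∧ 11 ≤ q) := by
  obtain ⟨S, _, φ, hφ, h⟩ := h
  have h3 := (card_dvd_of_hom φ hφ h2 ⊤).trans (mul_dvd_mul_left 3 (Subgroup.card_subgroup_dvd_card _))
  rw [Subgroup.card_top] at h3
  rcases h with ⟨h, h'⟩ | ⟨h, -, h'⟩ <;> rw [h] at h3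
  exacts [.inl ⟨h3, h'⟩, .inr ⟨h3, h'⟩]

theorem exists_hom {P : Subgroup (GL (Fin 3) F)} (hH : H ≤ P ⊔ scalars (Fin 3) F) {S : Type*} [Group S]
    (e : PQ P ≃* S) : ∃ φ : H →* S, ∀ g, φ g = 1 → g.1 ∈ scalars (Fin 3) F :=
  ⟨(e.toMonoidHom.comp (QuotientGroup.quotientInfEquivProdNormalQuotient P (scalars (Fin 3) F)).symm.toMonoidHom).comp
    ((QuotientGroup.mk' _).comp (Subgroup.inclusion hH)), fun g hg => by
    simpa [Subgroup.mem_subgroupOf] using hg⟩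

theorem card_l32 : Nat.card (ProjectiveSpecialLinearGroup (Fin 3) (ZMod 2)) = 168 := by
  have := H12.card_PSL_fin (ZMod.card 2) 3 (by decide)
  rw [show ∏ i : Fin 3, (2 ^ 3 - 2 ^ (i : ℕ)) = 168 by decide] at this
  simpa using this

theorem card_a6 : Nat.card (alternatingGroup (Fin 6)) = 360 := by
  rw [nat_card_alternatingGroup]; simp; rfl

end Cfsg.Agent.MiU
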