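import Cfsg.Agent.MiU.B
import Cfsg.Agent.H12.MaxC
import Cfsg.Agent.H12.CfD

/-!
The list of possible maximal subgroups of `SU₃(q)` in invariant form.
-/

set_option autoImplicit false

namespace Cfsg.Agent.MiU

open Cfsg.Geo Matrix Cfsg.Agent.H18 Cfsg.Agent.H18.Mi Module

variable {F : Type*} [Field F] [Fintype F] {q : ℕ} {H M R : Subgroup (GL (Fin 3) F)}

/-- the special unitary group -/
abbrev SU3 (F : Type*) [Field F] (q : ℕ) : Subgroup (GL (Fin 3) F) := GU 3 F q ⊓ specialLinear (Fin 3) F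

/-- the data of an extraspecial group in the unitary group -/
structure RD (q : ℕ) (R : Subgroup (GL (Fin 3) F)) : Prop where
  prime : q.Prime
  mod : q % 3 = 2
  le : 11 ≤ q
  symp : IsSymplecticTypeGroup 3 R
  abs : ActsAbsolutelyIrreducibly (matrixSet R)
  sim : R ≤ similarityGroup (hermForm 3 F q)
  card : Nat.card R = 27
  cen : Nat.card (Subgroup.center R) = 3

omit [Fintype F] in
theorem RD.r3 (h : RD q R) : R3 R := MiU.r3 h.symp h.abs h.card h.cen

/-- the possibilities for a maximal subgroup -/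
def Col (q : ℕ) (H : Subgroup (GL (Fin 3) F)) : Prop :=
  Red H ∨ (∃ D : Fin 3 → Submodule F (Fin 3 → F), IsNondegenerateMDecomposition (hermForm 3 F q) 1 D ∧
      H = decompositionStabilizer D ⊓ SU3 F q) ∨
    (∃ K : Subalgebra F (Matrix (Fin 3) (Fin 3) F), IsFieldSubalgebra 3 K ∧
      H = subalgebraNormalizer K ⊓ SU3 F q) ∨
    (∃ (E : Subfield F) (r : ℕ) (P : GL (Fin 3) F), r.Prime ∧ Fintype.card F = Nat.card E ^ r ∧
      H = subfieldSubgroup E P ⊓ SU3 F q) ∨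
    (∃ R : Subgroup (GL (Fin 3) F), RD q R ∧ H = subgroupNormalizer R ⊓ SU3 F q) ∨
    (q.Prime ∧ (q = 5 ∨ Sp q H))

theorem max_of {A : Type*} [Group A] [Finite A] {G S : Subgroup A} (h1 : ¬ G ≤ S)
    (h : ∀ H, IsMaximalIn G H → S ⊓ G ≤ H → H ≤ S) : IsMaximalIn G (S ⊓ G) := by
  refine ⟨lt_of_le_of_ne inf_le_right fun e => h1 (e.ge.trans inf_le_left), fun N h2 h3 => ?_⟩
  refine or_iff_not_imp_right.mpr fun h4 => le_antisymm (le_inf ?_ h3) h2
  obtain ⟨H, h5, h6⟩ := Finite.exists_le_maximal (p := fun X : Subgroup A => X < G) (lt_of_le_of_ne h3 h4)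
  exact h5.trans (h H ⟨h6.prop, fun X h7 h8 => or_iff_not_imp_right.mpr fun h9 =>
    le_antisymm (h6.le_of_ge (lt_of_le_of_ne h8 h9) h7) h7⟩ (h2.trans h5))

theorem hform (hF : Fintype.card F = q ^ 2) : HForm (H12.frobq hF) 1 (hermForm 3 F q) :=
  (H12.exists_tvF_su hF (n := 3) (by decide)).elim fun _ h => h.toHForm

theorem mem_SU3 (hF : Fintype.card F = q ^ 2) {B X : GL (Fin 3) F}
    (h : X.1ᵀ * grm (hermForm 3 F q) B * X.1.map (H12.frobq hF) = grm (hermForm 3 F q) B)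
    (h1 : X.1.det = 1) : B * X * B⁻¹ ∈ SU3 F q :=
  ⟨(hform hF).mem_isoG_of_grm h, Units.ext (by
    rw [GeneralLinearGroup.val_det_apply, Units.val_mul, Units.val_mul, det_units_conj]; exact h1)⟩

omit [Fintype F] in
theorem conj_mem_SU3 {U g : GL (Fin 3) F} (hU : U ∈ GU 3 F q) (hg : g ∈ SU3 F q) : U * g * U⁻¹ ∈ SU3 F q :=
  ⟨(GU 3 F q).mul_mem ((GU 3 F q).mul_mem hU hg.1) ((GU 3 F q).inv_mem hU), (MonoidHom.normal_ker _).conj_mem _ hg.2 U⟩

theorem mem_GU_of_grm (hF : Fintype.card F = q ^ 2) {B B' : GL (Fin 3) F}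
    (h : grm (hermForm 3 F q) B = grm (hermForm 3 F q) B') : B * B'⁻¹ ∈ GU 3 F q := fun u v => by
  change hermForm 3 F q ((B * B'⁻¹).1 *ᵥ u) ((B * B'⁻¹).1 *ᵥ v) = _
  rw [Units.val_mul, ← mulVec_mulVec, ← mulVec_mulVec, (hform hF).eq_grm, h, ← (hform hF).eq_grm,
    mulVec_inv_mulVec, mulVec_inv_mulVec]

theorem le_of_conj (hM : M ≤ H) (U : GL (Fin 3) F) (h : ∀ g ∈ H, U * g * U⁻¹ ∈ M) : H ≤ M :=
  (Subgroup.eq_of_le_of_card_ge hM (Nat.card_le_card_of_injective (fun g : H => (⟨_, h g g.2⟩ : M))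
    fun g g' e => Subtype.ext (by simpa using e))).ge

theorem trc_inv (hF : Fintype.card F = q ^ 2) {g : GL (Fin 3) F} (hg : g ∈ GU 3 F q) :
    trc g⁻¹ = trc g ^ q := by
  have h1 := (hform hF).adj_coe (g := g) (c := 1) fun u v => by rw [one_mul]; exact hg u v
  have h2 := (hform hF).trace_adj g.1
  rw [h1, map_one, one_smul] at h2
  exact h2

theorem charP_of_prime (hF : Fintype.card F = q ^ 2) (hq : q.Prime) : CharP F q :=
  have := Fact.mk hq
  charP_of_card_eq_prime_pow hF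

omit [Fintype F] in
theorem conj_scalar {B X : GL (Fin 3) F} (h : B * X * B⁻¹ ∈ scalars (Fin 3) F) : X ∈ scalars (Fin 3) F := by
  simpa [mul_assoc] using (scalars_normal (ι := Fin 3) (F := F)).conj_mem _ h B⁻¹

end Cfsg.Agent.MiU
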