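import Cfsg.Agent.MiU.R5

/-!
Imprimitive subgroups of `SU₃(q)`.
-/

set_option autoImplicit false

namespace Cfsg.Agent.MiU

open Cfsg.Geo Matrix Cfsg.Agent.H18 Cfsg.Agent.H18.Mi Module

variable {F : Type*} [Field F]

/-- diagonal matrices of determinant one -/
def dg : Fˣ × Fˣ →* GL (Fin 3) F := MonoidHom.mk' (fun x =>
  ⟨!![x.1.1, 0, 0; 0, x.2.1, 0; 0, 0, (x.1.1 * x.2.1)⁻¹], !![x.1.1⁻¹, 0, 0; 0, x.2.1⁻¹, 0; 0, 0, x.1.1 * x.2.1],
    by ext i j; fin_cases i <;> fin_cases j <;> simp [Matrix.mul_apply, Fin.sum_univ_three]; field_simp,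
    by ext i j; fin_cases i <;> fin_cases j <;> simp [Matrix.mul_apply, Fin.sum_univ_three]; field_simp⟩)
  fun x y => Units.ext (by
    ext i j; fin_cases i <;> fin_cases j <;> simp [Matrix.mul_apply, Fin.sum_univ_three]; ring)

theorem dg_val (x y : Fˣ) : (dg (x, y)).1 = !![x.1, 0, 0; 0, y.1, 0; 0, 0, (x.1 * y.1)⁻¹] := rfl

theorem dg_inj : Function.Injective (dg : Fˣ × Fˣ →* GL (Fin 3) F) := fun x y h => by
  have h1 := congrArg Units.val h
  exact Prod.ext (Units.ext (by simpa [dg] using congrFun (congrFun h1 0) 0))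
    (Units.ext (by simpa [dg] using congrFun (congrFun h1 1) 1))

/-- the cyclic permutation matrix -/
def cy : GL (Fin 3) F :=
  ⟨!![0, 0, 1; 1, 0, 0; 0, 1, 0], !![0, 1, 0; 0, 0, 1; 1, 0, 0],
    by ext i j; fin_cases i <;> fin_cases j <;> simp [Matrix.mul_apply, Fin.sum_univ_three],
    by ext i j; fin_cases i <;> fin_cases j <;> simp [Matrix.mul_apply, Fin.sum_univ_three]⟩

theorem cy_val : (cy : GL (Fin 3) F).1 = !![0, 0, 1; 1, 0, 0; 0, 1, 0] := rfl

theorem dg_cy (x : Fˣ) : dg (1, x⁻¹) * cy * (dg (1, x⁻¹))⁻¹ * cy⁻¹ = dg (x⁻¹, x⁻¹) := by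
  rw [mul_inv_eq_iff_eq_mul, mul_inv_eq_iff_eq_mul]
  refine Units.ext ?_
  ext i j; fin_cases i <;> fin_cases j <;> simp [dg_val, cy_val, Matrix.mul_apply, Fin.sum_univ_three]

theorem dg_ww (x : Fˣ) : dg (x, x⁻¹) * ww * (dg (x, x⁻¹))⁻¹ * ww⁻¹ = dg (x, 1) := by
  rw [mul_inv_eq_iff_eq_mul, mul_inv_eq_iff_eq_mul]
  refine Units.ext ?_
  ext i j; fin_cases i <;> fin_cases j <;> simp [dg_val, ww_val, Matrix.mul_apply, Fin.sum_univ_three]

theorem dg_not_scalar {x y : Fˣ} (h : x ≠ 1 ∨ y ≠ 1) (h1 : x * x = 1) (h2 : y * y = 1) :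
    dg (x, y) ∉ scalars (Fin 3) F := fun h3 => by
  obtain ⟨c, hc⟩ := (mem_scalars_iff _).mp h3
  have a0 : x = c := Units.ext (by simpa [dg_val] using congrFun (congrFun hc 0) 0)
  have a1 : y = c := Units.ext (by simpa [dg_val] using congrFun (congrFun hc 1) 1)
  have a2 : (x * y)⁻¹ = c := Units.ext (by simpa [dg_val] using congrFun (congrFun hc 2) 2)
  subst a0 a1
  rw [h1, inv_one] at a2
  simp [← a2] at h

variable [Fintype F] {q : ℕ} {D D' : Fin 3 → Submodule F (Fin 3 → F)}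

theorem exists_frame (hF : Fintype.card F = q ^ 2) (hD : IsNondegenerateMDecomposition (hermForm 3 F q) 1 D) :
    ∃ B : GL (Fin 3) F, grm (hermForm 3 F q) B = 1 ∧ ∀ i v, v ∈ D i ↔ ∃ c : F, c • (B.1 *ᵥ Pi.single i 1) = v := by
  have hf := hform hF
  obtain ⟨v, h1, hv⟩ := hf.exists_unit_frame (H12.frobq_ne_id hF) hD
  obtain ⟨b, hb⟩ := hf.exists_basis_of_orth (v := v) (fun i => by simp [hv])
    (fun i j hij => by simp [hv, hij]) rfl
  obtain ⟨P, hP⟩ := exists_P_of_basis b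
  refine ⟨P, Matrix.ext fun i j => by rw [grm_apply, hP, hP, hb, hb, hv, one_apply], fun i w => ?_⟩
  rw [hP, hb]
  refine ⟨fun hw => ?_, by rintro ⟨c, rfl⟩; exact Submodule.smul_mem _ _ (h1 i)⟩
  obtain ⟨c, hc⟩ := (finrank_eq_one_iff_of_nonzero' (K := F) (⟨v i, h1 i⟩ : D i)
    (by simpa [← hb] using b.ne_zero i)).mp (hD.decomp.finrank_eq i) ⟨w, hw⟩
  exact ⟨c, congrArg Subtype.val hc⟩

set_option maxHeartbeats 1600000 in
theorem row3 (hF : Fintype.card F = q ^ 2) (hq : 3 ≤ q) (h5 : q ≠ 5)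
    (hD : IsNondegenerateMDecomposition (hermForm 3 F q) 1 D) : ¬ SU3 F q ≤ decompositionStabilizer D ∧
    ∀ H : Subgroup (GL (Fin 3) F), H ≤ SU3 F q → Col q H → decompositionStabilizer D ⊓ SU3 F q ≤ H →
      H ≤ decompositionStabilizer D := by
  obtain ⟨B, hB, h1⟩ := exists_frame hF hD
  set σ := H12.frobq hF with hσ
  have hs : ∀ x, σ (σ x) = x := H12.frobq_frobq hF
  have k0 : ∀ X : GL (Fin 3) F, X.1ᵀ * X.1.map σ = 1 → X.1.det = 1 → B * X * B⁻¹ ∈ SU3 F q :=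
    fun X a1 a2 => mem_SU3 hF (by rw [hB, mul_one]; exact a1) a2
  refine ⟨fun h => ?_, fun H hH hc hM => ?_⟩
  · obtain ⟨c, c1, c2, c3⟩ := H12.exists_fix_frobq hF (by omega)
    obtain ⟨a, ha⟩ := H13.exists_conj_mul_eq (H12.frobq_ne_id hF) hs c1
    obtain ⟨b, hb⟩ := H13.exists_conj_mul_eq (H12.frobq_ne_id hF) hs (c := 1 - c) (by rw [map_sub, map_one, c1])
    have a0 : a ≠ 0 := by rintro rfl; exact c2 (by simpa using ha.symm)
    have b0 : b ≠ 0 := by rintro rfl; exact c3 (by rw [mul_zero] at hb; linear_combination hb)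
    have e : (!![a, -σ b, 0; b, σ a, 0; 0, 0, 1] : Matrix (Fin 3) (Fin 3) F).det = 1 := by
      simp [det_fin_three]; linear_combination ha + hb
    let X : GL (Fin 3) F := GeneralLinearGroup.mkOfDetNeZero _ (e.trans_ne one_ne_zero)
    have hX : X.1 = !![a, -σ b, 0; b, σ a, 0; 0, 0, 1] := rfl
    obtain ⟨π, hπ⟩ := h (k0 X (by
      ext i j; fin_cases i <;> fin_cases j <;> simp [hX, Matrix.mul_apply, Fin.sum_univ_three, hs] <;>
        first | ring1 | linear_combination ha + hb) e)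
    obtain ⟨d, hd⟩ := (h1 _ _).mp ((hπ 0).le ⟨_, (h1 0 _).mpr ⟨1, one_smul _ _⟩, rfl⟩)
    rw [toLin'_apply, ← cj_coe, cj_mulVec, ← mulVec_smul] at hd
    have h2 := congrArg ((B⁻¹).1 *ᵥ ·) hd
    simp only [inv_mulVec_mulVec] at h2
    have h3 := congrFun h2 0
    have h4 := congrFun h2 1
    generalize π 0 = j at h3 h4
    fin_cases j <;> simp [hX, a0.symm, b0.symm] at h3 h4
  have key : ∀ X : GL (Fin 3) F, (∀ i, ∃ j, ∃ c : F, X.1 *ᵥ Pi.single i 1 = c • Pi.single j 1) →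
      X.1ᵀ * X.1.map σ = 1 → X.1.det = 1 → B * X * B⁻¹ ∈ H := fun X a1 a2 a3 =>
    hM ⟨mem_stab_of_le hD.decomp fun i => (a1 i).imp fun j ⟨c, hc⟩ v hv => by
      obtain ⟨d, rfl⟩ := (h1 _ _).mp hv
      rw [mulVec_smul, ← cj_coe, cj_mulVec, hc, mulVec_smul, smul_smul]
      exact (h1 _ _).mpr ⟨_, rfl⟩, k0 X a2 a3⟩
  have hd : ∀ x y : Fˣ, x ^ (q + 1) = 1 → y ^ (q + 1) = 1 → B * dg (x, y) * B⁻¹ ∈ H := fun x y hx hy => by
    have a1 : x.1 * σ x = 1 := by rw [hσ, H12.frobq_apply, ← pow_succ', ← Units.val_pow_eq_pow_val, hx]; rfl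
    have a2 : y.1 * σ y = 1 := by rw [hσ, H12.frobq_apply, ← pow_succ', ← Units.val_pow_eq_pow_val, hy]; rfl
    refine key _ (fun i => ⟨i, (dg (x, y)).1 i i, ?_⟩) ?_ (by simp [dg_val, det_fin_three]; field_simp)
    · ext j; fin_cases i <;> fin_cases j <;> simp [dg_val]
    · ext i j; fin_cases i <;> fin_cases j <;> simp [dg_val, Matrix.mul_apply, Fin.sum_univ_three, a1, a2]
      rw [← mul_inv, ← mul_inv, ← mul_inv, inv_eq_one]
      linear_combination (x.1 * σ x) * a2 + a1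
  have hw : B * ww * B⁻¹ ∈ H := key _ (fun i => ⟨![2, 1, 0] i, ![1, -1, 1] i, by
      ext j; fin_cases i <;> fin_cases j <;> simp [ww_val]⟩) (by
      ext i j; fin_cases i <;> fin_cases j <;> simp [ww_val, Matrix.mul_apply, Fin.sum_univ_three])
      (by simp [ww_val, det_fin_three])
  have hy : B * cy * B⁻¹ ∈ H := key _ (fun i => ⟨![1, 2, 0] i, 1, by
      ext j; fin_cases i <;> fin_cases j <;> simp [cy_val]⟩) (by
      ext i j; fin_cases i <;> fin_cases j <;> simp [cy_val, Matrix.mul_apply, Fin.sum_univ_three])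
      (by simp [cy_val, det_fin_three])
  obtain ⟨z, hz⟩ := H28.exists_prim (F := F) (r := q + 1) (by
    rw [hF, ← one_pow 2, Nat.sq_sub_sq]; exact dvd_mul_right _ _)
  obtain ⟨ζ, rfl⟩ := hz.isUnit (by omega)
  have z1 : ζ ^ (q + 1) = 1 := Units.ext (by simpa using hz.pow_eq_one)
  have z2 : ζ⁻¹ ^ (q + 1) = 1 := by rw [inv_pow, z1, inv_one]
  have z3 : ζ.1 ^ 2 ≠ 1 := hz.pow_ne_one_of_pos_of_lt (by decide) (by omega)
  rcases hc with hc | ⟨D', hD', rfl⟩ | ⟨K, hK, rfl⟩ | ⟨E, r, P, hr, hE, rfl⟩ | ⟨R, hR, rfl⟩ | ⟨hq', hc⟩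
  · exfalso
    obtain ⟨w, h0, h⟩ := hc.tr (M := H.comap (MulAut.conj B).toMonoidHom) B fun _ h => h
    obtain ⟨c, hc⟩ := h _ (hd ζ 1 z1 (one_pow _))
    obtain ⟨d, hd⟩ := h _ hy
    have c0 := congrFun hc 0
    have c1 := congrFun hc 1
    have d0 := congrFun hd 0
    have d1 := congrFun hd 1
    have d2 := congrFun hd 2
    simp [dg_val, cy_val, mulVec, dotProduct, Fin.sum_univ_three] at c0 c1 d0 d1 d2
    have e0 : w 0 ≠ 0 := fun e => h0 (by ext i; fin_cases i <;> simp [e, d0, d2])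
    have e1 : w 1 ≠ 0 := fun e => e0 (by rw [d1, e, mul_zero])
    have e2 : c = 1 := mul_right_cancel₀ e1 (by rw [← c1, one_mul])
    exact z3 (by rw [c0.resolve_right e0, e2, one_pow])
  · obtain ⟨B', hB', h2⟩ := exists_frame hF hD'
    refine (le_of_conj hM (B * B'⁻¹) fun g hg => ⟨mem_stab_of_le hD.decomp fun i => ?_,
      conj_mem_SU3 (mem_GU_of_grm hF (hB.trans hB'.symm)) hg.2⟩).trans inf_le_left
    obtain ⟨π, hπ⟩ := hg.1
    obtain ⟨d, hd⟩ := (h2 _ _).mp ((hπ i).le ⟨_, (h2 i _).mpr ⟨1, one_smul _ _⟩, rfl⟩)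
    refine ⟨π i, fun v hv => ?_⟩
    obtain ⟨c, rfl⟩ := (h1 _ _).mp hv
    rw [toLin'_apply] at hd
    refine (h1 _ _).mpr ⟨c * d, ?_⟩
    rw [_root_.mul_inv_rev, inv_inv]
    simp only [Units.val_mul, ← mulVec_mulVec, mulVec_smul, inv_mulVec_mulVec, ← hd, smul_smul]
  · exact absurd (conj_scalar (inv_scalar hK hw.1 (by
      rw [show B * ww * B⁻¹ * (B * ww * B⁻¹) = B * (ww * ww) * B⁻¹ by group, ww_ww]; simp)))
      (not_scalar (i := 0) (j := 2) (by decide) (by simp [ww_val]))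
  · exfalso
    have k1 : ∀ X Y : GL (Fin 3) F, B * X * B⁻¹ ∈ subfieldSubgroup E P → B * Y * B⁻¹ ∈ subfieldSubgroup E P →
        frobOf E (X * Y * X⁻¹ * Y⁻¹).1.trace = (X * Y * X⁻¹ * Y⁻¹).1.trace := fun X Y a1 a2 => by
      have := rat_trace (rat_comm a1 a2)
      rw [show B * X * B⁻¹ * (B * Y * B⁻¹) * (B * X * B⁻¹)⁻¹ * (B * Y * B⁻¹)⁻¹ = B * (X * Y * X⁻¹ * Y⁻¹) * B⁻¹ by
        group, ← cj_coe, trace_cj] at this
      exact (frobOf_eq_iff _ _).mpr this
    have a1 := k1 _ _ (hd 1 ζ⁻¹ (one_pow _) z2).1 hy.1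
    have a2 := k1 _ _ (hd ζ ζ⁻¹ z1 z2).1 hw.1
    rw [dg_cy] at a1
    rw [dg_ww] at a2
    simp [dg_val, trace_fin_three] at a1 a2
    have a3 : frobOf E ζ ≠ 0 := by simp
    have a4 : (frobOf E ζ - ζ) * (frobOf E ζ * ζ - 1) = 0 := by
      field_simp at a2
      linear_combination a2
    rcases mul_eq_zero.mp a4 with a5 | a5
    · have a6 := Finite.one_lt_card (α := E)
      rw [sub_eq_zero, frobOf_apply] at a5
      have a7 := Nat.le_of_dvd (by omega) (hz.dvd_of_pow_eq_one (Nat.card E - 1) (mul_right_cancel₀ ζ.ne_zero (by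
        rw [← pow_succ, Nat.sub_add_cancel a6.le, a5, one_mul])))
      have a8 := Nat.pow_le_pow_right a6.le hr.two_le
      have a9 := Nat.pow_lt_pow_left (show q < Nat.card E by omega) two_ne_zero
      omega
    · rw [show frobOf E ζ = ζ.1⁻¹ from eq_inv_of_mul_eq_one_left (sub_eq_zero.mp a5)] at a1
      have a6 : (ζ.1 - 1) ^ 2 * (ζ.1 ^ 2 - 1) = 0 := by
        field_simp at a1
        linear_combination -a1
      rcases mul_eq_zero.mp a6 with a7 | a7
      · exact z3 (by rw [sub_eq_zero.mp (pow_eq_zero_iff two_ne_zero |>.mp a7), one_pow])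
      · exact z3 (sub_eq_zero.mp a7)
  · exfalso
    have a1 : Odd q := hR.prime.odd_of_ne_two (by omega)
    have a2 : (-1 : Fˣ) ^ (q + 1) = 1 := a1.add_one.neg_one_pow
    have a3 : (-1 : Fˣ) ≠ 1 := fun h => two_ne_zero_iff_odd.mpr (hF ▸ a1.pow) (by
      have := congrArg Units.val h
      simp only [Units.val_neg, Units.val_one] at this
      linear_combination -this)
    have a4 : ∀ x y : Fˣ × Fˣ, B * dg x * B⁻¹ * (B * dg y * B⁻¹) = B * dg (x * y) * B⁻¹ := fun x y => by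
      rw [map_mul]; group
    refine hR.r3.no_four (hd (-1) 1 a2 (one_pow _)).1 (hd 1 (-1) (one_pow _) a2).1 ?_ ?_ ?_
      (fun h => dg_not_scalar (.inl a3) (by simp) (by simp) (conj_scalar h))
      (fun h => dg_not_scalar (.inr a3) (by simp) (by simp) (conj_scalar h))
      (fun h => dg_not_scalar (x := -1) (y := -1) (.inr a3) (by simp) (by simp)
        (conj_scalar (B := B) (by simpa [a4] using h))) <;> simp [a4, ← Prod.one_eq_mk]
  · exfalso
    let φ : rootsOfUnity (q + 1) F × rootsOfUnity (q + 1) F →* H :=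
      (((MulAut.conj B).toMonoidHom.comp dg).comp ((Subgroup.subtype _).prodMap (Subgroup.subtype _))).codRestrict H
        fun x => hd _ _ x.1.2 x.2.2
    have a1 := Subgroup.card_dvd_of_injective φ fun x y h => by
      have := dg_inj ((MulAut.conj B).injective (congrArg Subtype.val h))
      exact Prod.ext (Subtype.ext (congrArg Prod.fst this)) (Subtype.ext (congrArg Prod.snd this))
    rw [Nat.card_prod, hz.card_rootsOfUnity] at a1
    have b1 : ∀ n < 33, 3 ≤ n → n ≠ 5 → ¬ (n + 1) * (n + 1) ∣ 504 ∧ ¬ (n + 1) * (n + 1) ∣ 1080 := by decide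
    rcases (hc.resolve_left h5).card (hH.trans inf_le_right) with ⟨a2, -⟩ | ⟨a2, -⟩ <;>
      have a4 := a1.trans a2 <;> have a5 := Nat.le_of_dvd (by decide) a4
    exacts [(b1 q (by nlinarith) hq h5).1 a4, (b1 q (by nlinarith) hq h5).2 a4]

end Cfsg.Agent.MiU
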