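import Cfsg.Agent.MiU.C

/-!
Field extension subgroups of `SU₃(q)`.
-/

set_option autoImplicit false

namespace Cfsg.Agent.MiU

open Cfsg.Geo Matrix Cfsg.Agent.H18 Cfsg.Agent.H18.Mi Module

theorem exists_n (t : ℕ) : ∃ n, (t ^ 2 + t + 1 = n ∨ t ^ 2 + t + 1 = 3 * n) ∧ n.Coprime 6 ∧ n.Coprime (t + 1 + 1) := by
  obtain ⟨n, h1, h2⟩ : ∃ n, (t ^ 2 + t + 1 = n ∨ t ^ 2 + t + 1 = 3 * n) ∧ ¬ 3 ∣ n := by
    by_cases h : 3 ∣ t ^ 2 + t + 1
    · obtain ⟨n, hn⟩ := h
      refine ⟨n, .inr hn, fun h3 => ?_⟩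
      have h4 : (t ^ 2 + t + 1) % 9 = 0 := by omega
      have h5 : ∀ s < 9, (s ^ 2 + s + 1) % 9 ≠ 0 := by decide
      exact h5 _ (Nat.mod_lt t (by decide)) (by simpa [Nat.add_mod, Nat.pow_mod] using h4)
    · exact ⟨_, .inl rfl, h⟩
  have h3 : n ∣ t ^ 2 + t + 1 := by rcases h1 with h | h <;> rw [h]; exact Dvd.intro_left _ rfl
  have h4 : ¬ 2 ∣ n := fun h => by
    have := h.trans h3
    have := Nat.even_mul_succ_self t
    rw [show t ^ 2 + t + 1 = t * (t + 1) + 1 by ring] at *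
    obtain ⟨k, hk⟩ := this
    omega
  refine ⟨n, h1, Nat.Coprime.mul_right (Nat.prime_two.coprime_iff_not_dvd.mpr h4).symm
    (Nat.prime_three.coprime_iff_not_dvd.mpr h2).symm, Nat.coprime_of_dvd fun k hk a1 a2 => h2 ?_⟩
  have a3 : k ∣ 3 := by
    have a4 : k ∣ (t + 1 + 1) * (t + 1 + 1) := a2.mul_right _
    rw [← Nat.dvd_add_right a4, show (t + 1 + 1) * (t + 1 + 1) + 3 = t ^ 2 + t + 1 + 3 * (t + 1 + 1) by ring]
    exact dvd_add (a1.trans h3) (a2.mul_left _)
  rwa [← (Nat.prime_dvd_prime_iff_eq hk Nat.prime_three).mp a3]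

theorem perm6 (y : Equiv.Perm (Fin 3)) : y ^ 6 = 1 := by
  have := pow_card_eq_one (x := y)
  rwa [Fintype.card_perm, Fintype.card_fin] at this

theorem det_sub_one {F : Type*} [Field F] (X : Matrix (Fin 3) (Fin 3) F) :
    (X - 1).det = X.det - X.adjugate.trace + X.trace - 1 := by
  simp [det_fin_three, adjugate_fin_three, trace_fin_three, one_apply]; ring

theorem arith4 {m r t : ℕ} (hr : 3 ≤ r) (ho : r.Prime) (h : (t + 1) ^ 2 = m ^ r) (ht : 3 ≤ t) (h4 : t ≠ 4)
    (h1 : t ^ 2 + t + 1 ≤ 9 * m) : False := by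
  have hm : 2 ≤ m := by
    by_contra! h2
    interval_cases m
    · omega
    · rw [one_pow] at h; nlinarith
  have h2 : m ^ 3 ≤ (t + 1) ^ 2 := h ▸ Nat.pow_le_pow_right (by omega) hr
  have h3 : t ≤ 4 := by
    by_contra! h3
    have h5 := Nat.pow_le_pow_left h1 3
    rw [mul_pow] at h5
    have h6 : (t ^ 2 + t + 1) ^ 3 ≤ 9 ^ 3 * (t + 1) ^ 2 := h5.trans (Nat.mul_le_mul_left _ h2)
    obtain ⟨s, rfl⟩ := Nat.exists_eq_add_of_lt h3
    ring_nf at h6
    omega
  obtain rfl : t = 3 := by omega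
  obtain rfl : m = 2 := by
    by_contra h5
    have := Nat.pow_le_pow_left (show 3 ≤ m by omega) 3
    omega
  have : r = 4 := Nat.pow_right_injective (le_refl 2) (h.symm.trans (by norm_num))
  subst this
  exact absurd ho (by decide)

variable {F : Type*} [Field F] [Fintype F] {q : ℕ} {K : Subalgebra F (Matrix (Fin 3) (Fin 3) F)}

theorem card_fib (hK : IsFieldSubalgebra 3 K) {x : GL (Fin 3) F} (hx : x.1 ∈ K)
    (hF : Fintype.card F = q ^ 2) (h : x ∈ SU3 F q) {E : Subfield F} (hE : ∀ i, trc (x ^ i) ∈ E) :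
    orderOf x ≤ 3 * Nat.card E := by
  classical
  let _ : Field K := (isField_of_inv K hK.comm hK.inv).toField
  have h1 := Finset.card_le_mul_card_image_of_maps_to (s := Finset.range (orderOf x))
    (t := (E : Set F).toFinset) (f := fun i => trc (x ^ i)) (fun i _ => by simpa using hE i) 3 fun τ _ => by
      let p : Polynomial K := Polynomial.X ^ 3 - Polynomial.C (algebraMap F K τ) * Polynomial.X ^ 2 +
        Polynomial.C (algebraMap F K (τ ^ q)) * Polynomial.X - 1
      have p1 : p.natDegree = 3 := by simp only [p]; compute_degree!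
      have p0 : p ≠ 0 := by rintro h0; rw [h0] at p1; simp at p1
      refine le_trans (Finset.card_le_card_of_injOn (t := p.roots.toFinset) (fun i => (⟨x.1, hx⟩ : K) ^ i)
        (fun i hi => ?_) fun i hi j hj e => ?_) ((Multiset.toFinset_card_le _).trans
          ((Polynomial.card_roots' p).trans p1.le))
      · have h2 := MiX.ch (pow_mem h i).2
        rw [trc_inv hF (pow_mem h i).1, (Finset.mem_filter.mp hi).2] at h2
        simp only [Finset.mem_coe, Multiset.mem_toFinset, Polynomial.mem_roots p0, Polynomial.IsRoot, p,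
          Polynomial.eval_sub, Polynomial.eval_add, Polynomial.eval_mul, Polynomial.eval_pow, Polynomial.eval_X,
          Polynomial.eval_C, Polynomial.eval_one, ← Algebra.smul_def]
        refine Subtype.ext ?_
        rw [Units.val_pow_eq_pow_val] at h2
        change (x.1 ^ i) ^ 3 - τ • (x.1 ^ i) ^ 2 + τ ^ q • x.1 ^ i - 1 = 0
        rw [pow_three', h2, sq]; abel
      · exact pow_injOn_Iio_orderOf (by simpa using (Finset.mem_filter.mp hi).1)
          (by simpa using (Finset.mem_filter.mp hj).1) (Units.ext (by simpa using congrArg Subtype.val e))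
  rwa [Finset.card_range, Set.toFinset_card, ← Nat.card_eq_fintype_card] at h1

theorem row4 (hF : Fintype.card F = q ^ 2) (hq : 3 ≤ q) (h3 : q ≠ 3) (h5 : q ≠ 5) (hK : IsFieldSubalgebra 3 K)
    (ha : IsAdjointClosedFor (hermForm 3 F q) K)
    (H : Subgroup (GL (Fin 3) F)) (hH : H ≤ SU3 F q) (hc : Col q H)
    (hM : subalgebraNormalizer K ⊓ SU3 F q ≤ H) : H ≤ subalgebraNormalizer K := by
  obtain ⟨t, rfl⟩ : ∃ t, q = t + 1 := ⟨q - 1, by omega⟩
  obtain ⟨n, n1, n2, n3⟩ := exists_n t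
  have hf := hform hF
  have n4 : 5 ≤ n := by rcases n1 with h | h <;> nlinarith [show 3 ≤ t by omega]
  have n5 : n ∣ (t + 1) ^ 3 + 1 := by
    rw [show (t + 1) ^ 3 + 1 = (t ^ 2 + t + 1) * (t + 2) by ring]
    rcases n1 with h | h <;> rw [h]
    exacts [dvd_mul_right _ _, (Dvd.intro_left _ rfl).mul_right _]
  obtain ⟨k, hk, k1⟩ := exists_primRoot hK (n := n) (by
    rw [hF, ← pow_mul, mul_comm, pow_mul, ← one_pow 2, Nat.sq_sub_sq]; exact n5.mul_right _)
  have k2 : k ^ n = 1 := k1 ▸ pow_orderOf_eq_one k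
  let x : GL (Fin 3) F := Units.ofPowEqOne k n k2 (by omega)
  have x0 : x.1 = k := rfl
  have x1 : orderOf x = n := by rw [← orderOf_units, x0, k1]
  have x2 : x ^ n = 1 := x1 ▸ pow_orderOf_eq_one x
  have x3 : x ∈ GU 3 F (t + 1) := fun u v => by
    change hermForm 3 F (t + 1) (k *ᵥ u) (k *ᵥ v) = _
    obtain ⟨c, hc⟩ := n5
    rw [hf.adj_spec, hf.adj_eq_pow hK (hf.adjClosed_iff.mp ha) (hf.exists_adj_ne (H12.frobq_ne_id hF) K)
      (s := (t + 1) ^ 3) (by rw [hF]; ring) k hk, mulVec_mulVec, ← pow_succ, hc, pow_mul, k2, one_pow, one_mulVec]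
  have x4 : x ∈ SU3 F (t + 1) := ⟨x3, Units.ext (by
    have a1 := hf.det_isoG x3
    rw [H12.frobq_apply, ← pow_succ'] at a1
    exact (pow_eq_one_iff_of_coprime n3).mp ⟨by
      rw [GeneralLinearGroup.val_det_apply, ← det_pow, x0, k2, det_one], a1⟩)⟩
  have x5 : x ∈ H := hM ⟨mem_subalgebraNormalizer.mpr fun y => by
    have a1 : (x⁻¹).1 ∈ K := by
      rw [show x⁻¹ = x ^ (n - 1) from inv_eq_of_mul_eq_one_right (by
        rw [← pow_succ', Nat.sub_add_cancel (by omega), x2]), Units.val_pow_eq_pow_val]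
      exact pow_mem hk _
    refine ⟨fun h => mul_mem (mul_mem hk h) a1, fun h => ?_⟩
    rw [← cj_inv_cj x y, cj_apply, inv_inv]
    exact mul_mem (mul_mem a1 h) hk, x4⟩
  have n6 : Nat.Coprime 3 n := (n2.coprime_dvd_right (by decide)).symm
  have x6 : ∀ i, x ^ i ∈ scalars (Fin 3) F → n ∣ i := fun i h => by
    have := MiX.cube_of_scalar h (pow_mem x4 i).2
    rw [← pow_mul, ← orderOf_dvd_iff_pow_eq_one, x1] at this
    exact n6.symm.dvd_of_dvd_mul_right this
  have x7 : ∀ c : F, k ≠ c • 1 := fun c h => by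
    have := Nat.le_of_dvd one_pos (x6 1 (by rw [pow_one]; exact mem_scalars_of_eq_smul h))
    omega
  obtain ⟨m, hm⟩ := exists_pow_eq_self_of_coprime (x := x) (x1 ▸ n6)
  rcases hc with ⟨w, w0, hw⟩ | ⟨D, hD, rfl⟩ | ⟨K', hK', rfl⟩ | ⟨E, r, P, hr, hE, rfl⟩ | ⟨R, hR, rfl⟩ | ⟨hq, hc⟩
  · obtain ⟨c, hc⟩ := hw x x5
    exact absurd (scalar_of_eig hK hk w0 hc) (x7 c)
  · obtain ⟨π, -, h1, -⟩ := imp_of_dec hD.decomp (inf_le_left (b := SU3 F (t + 1)))
    obtain ⟨w, w0, c, hc⟩ := h1 ⟨x, x5⟩ ((pow_eq_one_iff_of_coprime n2).mp ⟨by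
      rw [← map_pow, show (⟨x, x5⟩ : ↥(decompositionStabilizer D ⊓ SU3 F (t + 1))) ^ n = 1 from Subtype.ext x2, map_one],
      perm6 _⟩)
    exact absurd (scalar_of_eig hK hk w0 hc) (x7 c)
  · have h1 := pow_mem (cube_mem hK' x5.1) m
    rw [← Units.val_pow_eq_pow_val, hm] at h1
    rw [fld_eq hK hK' hk h1 x7]
    exact inf_le_left
  · exfalso
    have h1 := pow_mem (rat_cube x5.1 x4.2) m
    rw [← Units.val_pow_eq_pow_val, hm] at h1
    by_cases h2 : r = 2
    · subst h2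
      have a1 := (mem_subfield_iff_pow E _).mp (rat_trace h1)
      rw [show Nat.card E = t + 1 from Nat.pow_left_injective two_ne_zero (hE.symm.trans hF)] at a1
      have a2 := det_sub_one x.1
      rw [MiX.adj_eq x4.2, MiX.det_one x4.2, show (x⁻¹).1.trace = x.1.trace from (trc_inv hF x3).trans a1] at a2
      obtain ⟨y, -, hy⟩ := hK.inv (k - 1) (sub_mem hk K.one_mem) (sub_ne_zero.mpr (by simpa using x7 1))
      have a3 := congrArg det hy
      rw [det_mul, ← x0, a2] at a3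
      simp at a3
    · have a1 := card_fib hK hk hF x4 (E := E) fun i => rat_trace (pow_mem h1 i)
      have := hr.two_le
      exact arith4 (by omega) hr (hF.symm.trans hE) (by omega) (by omega) (by omega)
  · exfalso
    have a1 := Nat.minFac_prime (show n ≠ 1 by omega)
    obtain ⟨c, hc⟩ := Nat.minFac_dvd n
    have a2 : 5 ≤ n.minFac := by
      have a3 := n2.coprime_dvd_left (Nat.minFac_dvd n)
      have a4 := a1.two_le
      by_contra! a5
      generalize n.minFac = s at *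
      interval_cases s <;> simp_all (config := { decide := true })
    have a3 := x6 c (hR.r3.scalar_of_prime a1 a2 (pow_mem x5 c).1 (by rw [← pow_mul, mul_comm, ← hc, x2]))
    have a4 := Nat.le_of_dvd (Nat.pos_of_ne_zero (by rintro rfl; omega)) a3
    nlinarith
  · exfalso
    have h9 : n ∣ Nat.card H := x1 ▸ Subgroup.orderOf_dvd_natCard H x5
    rcases (hc.resolve_left h5).card (hH.trans inf_le_right) with ⟨a1, a2⟩ | ⟨a1, a2⟩
    · have a3 := Nat.le_of_dvd (by decide) ((n2.pow_right 3).dvd_of_dvd_mul_left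
        ((h9.trans a1).trans (by decide : 504 ∣ 6 ^ 3 * 7)))
      have a4 : t ≤ 4 := by rcases n1 with h | h <;> nlinarith
      obtain rfl : t = 3 := by omega
      omega
    · have a3 := Nat.le_of_dvd (by decide) ((n2.pow_right 3).dvd_of_dvd_mul_left
        ((h9.trans a1).trans (by decide : 1080 ∣ 6 ^ 3 * 5)))
      rcases n1 with h | h <;> nlinarith

end Cfsg.Agent.MiU
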