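import Cfsg.Agent.MiU.R5a

/-!
Subfield subgroups of `SU₃(q)`.
-/

set_option autoImplicit false

namespace Cfsg.Agent.MiU

open Cfsg.Geo Matrix Cfsg.Agent.H18 Cfsg.Agent.H18.Mi Module

variable {F : Type*} [Field F]

/-- unitriangular matrices -/
def ut (a b c : F) : GL (Fin 3) F :=
  ⟨!![1, a, b; 0, 1, c; 0, 0, 1], !![1, -a, a * c - b; 0, 1, -c; 0, 0, 1],
    by ext i j; fin_cases i <;> fin_cases j <;> simp [Matrix.mul_apply, Fin.sum_univ_three]; ring,
    by ext i j; fin_cases i <;> fin_cases j <;> simp [Matrix.mul_apply, Fin.sum_univ_three]; ring⟩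

/-- the Weyl element -/
def ww : GL (Fin 3) F :=
  ⟨!![0, 0, 1; 0, -1, 0; 1, 0, 0], !![0, 0, 1; 0, -1, 0; 1, 0, 0],
    by ext i j; fin_cases i <;> fin_cases j <;> simp [Matrix.mul_apply, Fin.sum_univ_three],
    by ext i j; fin_cases i <;> fin_cases j <;> simp [Matrix.mul_apply, Fin.sum_univ_three]⟩

theorem ut_val (a b c : F) : (ut a b c).1 = !![1, a, b; 0, 1, c; 0, 0, 1] := rfl
theorem ww_val : (ww : GL (Fin 3) F).1 = !![0, 0, 1; 0, -1, 0; 1, 0, 0] := rfl
theorem ww_ww : (ww : GL (Fin 3) F) * ww = 1 := Units.ext ww.val_inv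

theorem ut_unip (a b c : F) : ((ut a b c).1 - 1) ^ 3 = 0 := by
  rw [show (ut a b c).1 - 1 = !![0, a, b; 0, 0, c; 0, 0, 0] by
    ext i j; fin_cases i <;> fin_cases j <;> simp [ut_val]]
  ext i j; fin_cases i <;> fin_cases j <;> simp [pow_three, Matrix.mul_apply, Fin.sum_univ_three]

theorem ut_mul (a b c a' b' c' : F) :
    (ut a b c)⁻¹ * ut a' b' c' = ut (a' - a) (b' - a * c' + a * c - b) (c' - c) := by
  refine Units.ext ?_
  change !![1, -a, a * c - b; 0, 1, -c; 0, 0, 1] * (ut a' b' c').1 = _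
  ext i j; fin_cases i <;> fin_cases j <;> simp [ut_val, Matrix.mul_apply, Fin.sum_univ_three] <;> ring

theorem conj_unip (B : GL (Fin 3) F) {X : GL (Fin 3) F} (h : (X.1 - 1) ^ 3 = 0) :
    ((B * X * B⁻¹).1 - 1) ^ 3 = 0 := by
  rw [← cj_coe, ← map_one (cj B), ← map_sub, ← map_pow, h, map_zero]

theorem not_scalar {X : GL (Fin 3) F} {i j : Fin 3} (h : i ≠ j) (h1 : X.1 i j ≠ 0) : X ∉ scalars (Fin 3) F := fun h2 => by
  obtain ⟨c, hc⟩ := (mem_scalars_iff _).mp h2
  simp [hc, h] at h1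

theorem rat_cj {E : Subfield F} {B P : GL (Fin 3) F} {X : Matrix (Fin 3) (Fin 3) F} :
    cj B X ∈ rat E P ↔ X ∈ rat E (B⁻¹ * P) := by
  rw [mem_rat, mem_rat, ← cj_mul, _root_.mul_inv_rev, inv_inv]

theorem not_red_ut {M : Subgroup (GL (Fin 3) F)} {a b : F} (ha : a ≠ 0) (h1 : ut a b 1 ∈ M) (h2 : ww ∈ M) :
    ¬ Red M := by
  rintro ⟨w, h0, h⟩
  obtain ⟨c, hc⟩ := h _ h1
  obtain ⟨d, hd⟩ := h _ h2
  have c0 := congrFun hc 0
  have c1 := congrFun hc 1
  have c2 := congrFun hc 2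
  have d2 := congrFun hd 2
  simp [ut_val, ww_val, mulVec, dotProduct, Fin.sum_univ_three] at c0 c1 c2 d2
  have e2 : w 2 = 0 := by
    by_contra e
    have : c = 1 := mul_right_cancel₀ e (by rw [← c2, one_mul])
    exact e (by rw [this] at c1; linear_combination c1)
  have e1 : w 1 = 0 := by
    by_contra e
    have : c = 1 := mul_right_cancel₀ e (by rw [← c1, e2]; ring)
    exact mul_ne_zero ha e (by rw [this, e2] at c0; linear_combination c0)
  exact h0 (by ext i; fin_cases i <;> simp [e1, e2, d2])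

theorem single_mem {E : Subfield F} {Q : GL (Fin 3) F} {δ b : F} (h0 : δ ≠ 0) (hδ : δ ∈ E) (hb : b ∈ E)
    (h1 : (ut (-δ) b 1).1 ∈ rat E Q) (h2 : (ww * ut (-δ) b 1 * ww⁻¹ : GL (Fin 3) F).1 ∈ rat E Q)
    {X : Matrix (Fin 3) (Fin 3) F} (hX : ∀ i j, X i j ∈ E) : X ∈ rat E Q := by
  have a1 := sub_mem h1 (one_mem _)
  have a2 := sub_mem h2 (one_mem _)
  rw [show (ut (-δ) b 1).1 - 1 = !![0, -δ, b; 0, 0, 1; 0, 0, 0] by
    ext i j; fin_cases i <;> fin_cases j <;> simp [ut_val]] at a1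
  rw [show (ww * ut (-δ) b 1 * ww⁻¹ : GL (Fin 3) F).1 - 1 = !![0, 0, 0; -1, 0, 0; b, δ, 0] by
    rw [inv_eq_of_mul_eq_one_left ww_ww]
    ext i j; fin_cases i <;> fin_cases j <;> simp [ut_val, ww_val, Matrix.mul_apply, Fin.sum_univ_three]] at a2
  have e02 : single 0 2 (1 : F) ∈ rat E Q := rat_of_smul (neg_mem hδ) (neg_ne_zero.mpr h0) (by
    convert mul_mem a1 a1 using 1
    ext i j; fin_cases i <;> fin_cases j <;> simp [Matrix.mul_apply, Fin.sum_univ_three])
  have e20 : single 2 0 (1 : F) ∈ rat E Q := rat_of_smul (neg_mem hδ) (neg_ne_zero.mpr h0) (by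
    convert mul_mem a2 a2 using 1
    ext i j; fin_cases i <;> fin_cases j <;> simp [Matrix.mul_apply, Fin.sum_univ_three])
  have a3 := sub_mem a1 (rat_smul hb e02)
  have e21 : single 2 1 (1 : F) ∈ rat E Q := rat_of_smul (neg_mem hδ) (neg_ne_zero.mpr h0) (by
    convert mul_mem e20 a3 using 1
    ext i j; fin_cases i <;> fin_cases j <;> simp [Matrix.mul_apply, Fin.sum_univ_three])
  have e10 : single 1 0 (1 : F) ∈ rat E Q := by
    convert mul_mem a3 e20 using 1
    ext i j; fin_cases i <;> fin_cases j <;> simp [Matrix.mul_apply, Fin.sum_univ_three]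
  have e00 : single 0 0 (1 : F) ∈ rat E Q := by simpa using mul_mem e02 e20
  have e01 : single 0 1 (1 : F) ∈ rat E Q := by simpa using mul_mem e02 e21
  have b1 : ∀ i : Fin 3, single i 0 (1 : F) ∈ rat E Q := fun i => by fin_cases i; exacts [e00, e10, e20]
  have b2 : ∀ i : Fin 3, single 0 i (1 : F) ∈ rat E Q := fun i => by fin_cases i; exacts [e00, e01, e02]
  rw [matrix_eq_sum_smul_single X]
  exact sum_mem fun i _ => sum_mem fun j _ => rat_smul (hX i j) (by simpa using mul_mem (b1 i) (b2 j))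

variable [Fintype F] {q : ℕ}

theorem subfield_eq {E E' : Subfield F} {r r' : ℕ} (hr : r.Prime) (hr' : r'.Prime)
    (h : Fintype.card F = Nat.card E ^ r) (h' : Fintype.card F = Nat.card E' ^ r') (hle : E ≤ E') : E = E' := by
  let _ : Algebra E E' := (Subfield.inclusion hle).toAlgebra
  have h1 := Module.natCard_eq_pow_finrank (K := E) (V := E')
  rw [h', h1, ← pow_mul] at h
  have h2 := Nat.pow_right_injective (Finite.one_lt_card (α := E)) h
  have h3 := (Nat.prime_dvd_prime_iff_eq hr' hr).mp ⟨_, h2.symm.trans (mul_comm _ _)⟩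
  rw [h3] at h2
  rw [(Nat.mul_eq_right hr.ne_zero).mp h2, pow_one] at h1
  ext x
  rw [mem_subfield_iff_pow, mem_subfield_iff_pow, h1]

set_option maxHeartbeats 1600000 in
theorem row56 (hF : Fintype.card F = q ^ 2) {E : Subfield F} {r : ℕ} (hr : r.Prime)
    (hE : Fintype.card F = Nat.card E ^ r) {P : GL (Fin 3) F}
    (hP : IsFormRationalStructure (hermForm 3 F q) E 1 P) {θ : F} (h1 : θ ∈ E) (h2 : θ + H12.frobq hF θ = 1)
    (h7 : q.Prime → 7 ≤ q)
    (hS : 7 ≤ Nat.card E ∨ (4 ≤ Nat.card E ∧ ∃ η ∈ E, η ≠ 0 ∧ η + H12.frobq hF η = 0))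
    (H : Subgroup (GL (Fin 3) F)) (hH : H ≤ SU3 F q) (hc : Col q H)
    (hM : subfieldSubgroup E P ⊓ SU3 F q ≤ H) : H ≤ subfieldSubgroup E P := by
  obtain ⟨δ, d1, d0, d2, B, hB, h3⟩ := exists_hyp (hform hF) hP h1 h2
  rw [← sub_congr h3] at hM ⊢
  set σ := H12.frobq hF with hσ
  have hs : ∀ x, σ (σ x) = x := H12.frobq_frobq hF
  have hσE : ∀ x ∈ E, σ x ∈ E := fun x hx => map_mem_subfield σ hx
  have key : ∀ X : GL (Fin 3) F, (∀ i j, X.1 i j ∈ E) → X.1ᵀ * hyp δ * X.1.map σ = hyp δ → X.1.det = 1 →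
      B * X * B⁻¹ ∈ H := fun X a1 a2 a3 => hM ⟨sub_of_rat (by
        rw [← cj_coe, mem_rat, cj_inv_cj]; exact a1), mem_SU3 hF (by rw [hB]; exact a2) a3⟩
  let u : F → F → GL (Fin 3) F := fun c e => ut (-(σ c * δ)) (-(c * σ c * δ * θ) + e) c
  have hb : ∀ c ∈ E, ∀ e ∈ E, -(c * σ c * δ * θ) + e ∈ E := fun c hc e he =>
    add_mem (neg_mem (mul_mem (mul_mem (mul_mem hc (hσE c hc)) d1) h1)) he
  have hu : ∀ c ∈ E, ∀ e ∈ E, e + σ e = 0 → B * u c e * B⁻¹ ∈ H := fun c hc e he h0 => key _ (by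
      have := hb c hc e he
      have := neg_mem (mul_mem (hσE c hc) d1)
      intro i j; fin_cases i <;> fin_cases j <;> simp only [u, ut_val] <;> simp <;> simp_all) (by
      ext i j; fin_cases i <;> fin_cases j <;>
        simp [u, ut_val, hyp, Matrix.mul_apply, Fin.sum_univ_three, hs, d2]
      · ring
      · linear_combination (-(c * σ c * δ)) * h2 + h0) (by simp [u, ut_val, det_fin_three])
  have hw : B * ww * B⁻¹ ∈ H := key _ (by intro i j; fin_cases i <;> fin_cases j <;> simp [ww_val]) (by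
      ext i j; fin_cases i <;> fin_cases j <;> simp [ww_val, hyp, Matrix.mul_apply, Fin.sum_univ_three])
      (by simp [ww_val, det_fin_three])
  have hu1 := hu 1 E.one_mem 0 E.zero_mem (by simp)
  have e1 : u 1 0 = ut (-δ) (-(δ * θ)) 1 := by simp [u]
  have hp : q.Prime → (B * u 1 0 * B⁻¹) ^ q = 1 ∧ B * u 1 0 * B⁻¹ ∉ scalars (Fin 3) F := fun hq => by
    have := charP_of_prime hF hq
    refine ⟨Units.ext ?_, fun h => not_scalar (i := 1) (j := 2) (by decide) (by simp [u, ut_val]) (conj_scalar h)⟩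
    have := pow_unip (conj_unip B (ut_unip (-(σ 1 * δ)) (-(1 * σ 1 * δ * θ) + 0) 1)) hq (k := 1)
      (by have := h7 hq; rw [pow_one]; omega)
    rwa [pow_one, ← Units.val_pow_eq_pow_val] at this
  rcases hc with hc | ⟨D, hD, rfl⟩ | ⟨K, hK, rfl⟩ | ⟨E', r', P', hr', hE', rfl⟩ | ⟨R, hR, rfl⟩ | ⟨hq, hc⟩
  · exact absurd (hc.tr (M := H.comap (MulAut.conj B).toMonoidHom) B fun _ h => h)
      (not_red_ut (neg_ne_zero.mpr d0) (e1 ▸ hu1) hw)
  · exfalso
    have hi := imp_of_dec hD.decomp (inf_le_left (b := SU3 F q))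
    have := Fintype.ofFinite E
    have k1 : ∀ c e c' e', (((B * u c e * B⁻¹)⁻¹ * (B * u c' e' * B⁻¹)).1 - 1) ^ 3 = 0 := fun c e c' e' => by
      rw [show (B * u c e * B⁻¹)⁻¹ * (B * u c' e' * B⁻¹) = B * ((u c e)⁻¹ * u c' e') * B⁻¹ by group, ut_mul]
      exact conj_unip B (ut_unip _ _ _)
    have k2 : ∀ {c e c' e'}, B * u c e * B⁻¹ = B * u c' e' * B⁻¹ → c = c' ∧ e = e' := fun {c e c' e'} h => by
      have h4 := congrArg Units.val (mul_left_cancel (mul_right_cancel h))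
      have h5 : c = c' := by simpa [u, ut_val] using congrFun (congrFun h4 1) 2
      subst h5
      exact ⟨rfl, by simpa [u, ut_val] using congrFun (congrFun h4 0) 2⟩
    rw [Nat.card_eq_fintype_card] at hS
    rcases hS with hS | ⟨hS, η, a1, a2, a3⟩
    · have := hi.card_le (u := fun c : E => B * u c 0 * B⁻¹) (fun c => hu c c.2 0 E.zero_mem (by simp))
        (fun _ _ => k1 _ _ _ _) fun _ _ h => Subtype.ext (k2 h).1
      omega
    · have := hi.card_le (u := fun c : E × Bool => B * u c.1 (cond c.2 η 0) * B⁻¹)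
        (fun c => hu c.1 c.1.2 _ (by cases c.2; exacts [E.zero_mem, a1]) (by cases c.2 <;> simp [a3]))
        (fun _ _ => k1 _ _ _ _) fun c c' h => Prod.ext (Subtype.ext (k2 h).1) (by
          have k3 : ∀ x y : Bool, cond x η 0 = cond y η 0 → x = y := by
            rintro (_ | _) (_ | _) h
            exacts [rfl, absurd h.symm a2, absurd h a2, rfl]
          exact k3 _ _ (k2 h).2)
      rw [Fintype.card_prod, Fintype.card_bool] at this
      omega
  · exact absurd (conj_scalar (inv_scalar hK hw.1 (by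
      rw [show B * ww * B⁻¹ * (B * ww * B⁻¹) = B * (ww * ww) * B⁻¹ by group, ww_ww]; simp)))
      (not_scalar (i := 0) (j := 2) (by decide) (by simp [ww_val]))
  · have k1 : ∀ X : GL (Fin 3) F, B * X * B⁻¹ ∈ subfieldSubgroup E' P' ⊓ SU3 F q → (X.1 - 1) ^ 3 = 0 →
        X.1 ∈ rat E' (B⁻¹ * P') := fun X h h' => rat_cj.mp (cj_coe B X ▸ rat_unip h.1 (conj_unip B h'))
    have k2 : ∀ c ∈ E, (-(δ * c)) • single 0 2 (1 : F) ∈ rat E' (B⁻¹ * P') := fun c hc => by
      convert mul_mem (sub_mem (k1 _ hu1 (ut_unip _ _ _)) (one_mem _))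
        (sub_mem (k1 _ (hu c hc 0 E.zero_mem (by simp)) (ut_unip _ _ _)) (one_mem _)) using 1
      ext i j; fin_cases i <;> fin_cases j <;> simp [u, ut_val, Matrix.mul_apply, Fin.sum_univ_three, one_apply]
    have k3 : E ≤ E' := fun c hc => mem_of_rat (k2 1 E.one_mem) (smul_ne_zero (by simpa using d0) fun h => by
      simpa using congrFun (congrFun h 0) 2) (by rw [smul_smul]; convert k2 c hc using 2; ring)
    obtain rfl := subfield_eq hr hr' hE hE' k3
    have k4 : subfieldSubgroup E B ≤ subfieldSubgroup E P' := fun g hg => by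
      obtain ⟨ζ, a1, a2⟩ := sub_iff.mp hg
      refine sub_iff.mpr ⟨ζ, a1, ?_⟩
      rw [← cj_cj_inv B (ζ • g.1), rat_cj]
      refine single_mem d0 d1 (neg_mem (mul_mem d1 h1)) (e1 ▸ k1 _ hu1 (ut_unip _ _ _)) (k1 _ ?_
        (conj_unip _ (ut_unip _ _ _))) a2
      rw [← e1, show B * (ww * u 1 0 * ww⁻¹) * B⁻¹ = B * ww * B⁻¹ * (B * u 1 0 * B⁻¹) * (B * ww * B⁻¹)⁻¹ by group]
      exact mul_mem (mul_mem hw hu1) (inv_mem hw)
    exact inf_le_left.trans (Subgroup.eq_of_le_of_card_ge k4 ((card_conj _).trans (card_conj _).symm).le).ge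
  · exact absurd (hR.r3.scalar_of_prime hR.prime (by have := hR.le; omega) hu1.1 (hp hR.prime).1) (hp hR.prime).2
  · exfalso
    have h8 := h7 hq
    have := Fact.mk hq
    have h9 : q ∣ Nat.card H := by
      rw [← orderOf_eq_prime (hp hq).1 fun h => (hp hq).2 (h ▸ one_mem _)]
      exact Subgroup.orderOf_dvd_natCard H hu1
    rcases (hc.resolve_left (by omega)).card (hH.trans inf_le_right) with ⟨a1, a2⟩ | ⟨a1, a2⟩
    · have a3 : q ∣ 2 ^ 3 * (3 ^ 2 * 7) := h9.trans a1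
      rcases (Nat.Prime.dvd_mul hq).1 a3 with e | e
      · have := Nat.prime_eq_prime_of_dvd_pow hq Nat.prime_two e; omega
      rcases (Nat.Prime.dvd_mul hq).1 e with e | e
      · have := Nat.prime_eq_prime_of_dvd_pow hq Nat.prime_three e; omega
      · have := Nat.le_of_dvd (by decide) e; omega
    · have a3 : q ∣ 2 ^ 3 * (3 ^ 3 * 5) := h9.trans a1
      rcases (Nat.Prime.dvd_mul hq).1 a3 with e | e
      · have := Nat.prime_eq_prime_of_dvd_pow hq Nat.prime_two e; omega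
      rcases (Nat.Prime.dvd_mul hq).1 e with e | e
      · have := Nat.prime_eq_prime_of_dvd_pow hq Nat.prime_three e; omega
      · have := Nat.le_of_dvd (by decide) e; omega

end Cfsg.Agent.MiU
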