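import Cfsg.Agent.MiU.C

/-!
Hyperbolic bases of rational structures.
-/

set_option autoImplicit false

namespace Cfsg.Agent.MiU

open Cfsg.Geo Matrix Cfsg.Agent.H18 Cfsg.Agent.H18.Mi Module

variable {F : Type*} [Field F] {σ : F →+* F} {f : (Fin 3 → F) → (Fin 3 → F) → F}
  {E : Subfield F} {P Q : GL (Fin 3) F}

theorem grm_mul (hf : HForm σ 1 f) (P Q : GL (Fin 3) F) :
    grm f (P * Q) = Q.1ᵀ * grm f P * Q.1.map σ := frm_inj (σ := σ) fun u v => by
  rw [← hf.eq_grm, ← frm_mulVec_mulVec, ← hf.eq_grm, Units.val_mul, mulVec_mulVec, mulVec_mulVec]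

theorem exists_scalar [Finite F] (hf : HForm σ 1 f) (h2 : σ = RingHom.id F → (2 : F) ≠ 0) :
    ∃ c : F, c ≠ 0 ∧ ∃ P : GL (Fin 3) F, grm f P = c • 1 := by
  by_cases h : σ = RingHom.id F
  · subst h
    obtain ⟨c, v, h0, hv⟩ := hf.exists_scalar_gram (h2 rfl) (by simp)
    obtain ⟨b, hb⟩ := hf.exists_basis_of_orth (v := v) (fun i => by simp [hv, h0])
      (fun i j hij => by simp [hv, hij]) rfl
    obtain ⟨P, hP⟩ := exists_P_of_basis b
    exact ⟨c, h0, P, Matrix.ext fun i j => by simp [grm_apply, hP, hb, hv, one_apply]⟩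
  · obtain ⟨P, hP⟩ := hf.exists_orthonormal h
    exact ⟨1, one_ne_zero, P, by rw [hP, one_smul]⟩

theorem rat_mul [Finite F] (hQ : ∀ i j, Q.1 i j ∈ E) : rat E (P * Q) = rat E P := by
  have h1 : Q.1 ∈ E.toSubring.matrix := hQ
  have h2 : (Q⁻¹).1 ∈ E.toSubring.matrix := by
    have : Q⁻¹ = Q ^ (orderOf Q - 1) := inv_eq_of_mul_eq_one_right (by
      rw [← pow_succ', Nat.sub_add_cancel (orderOf_pos Q), pow_orderOf_eq_one])
    rw [this, Units.val_pow_eq_pow_val]; exact pow_mem h1 _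
  ext X
  change cj (P * Q)⁻¹ X ∈ E.toSubring.matrix ↔ cj P⁻¹ X ∈ E.toSubring.matrix
  rw [_root_.mul_inv_rev, cj_mul]
  refine ⟨fun h => ?_, fun h => ?_⟩
  · rw [← cj_cj_inv Q (cj P⁻¹ X), cj_apply]; exact mul_mem (mul_mem h1 h) h2
  · rw [cj_apply, inv_inv]; exact mul_mem (mul_mem h2 h) h1

theorem sub_congr {B : GL (Fin 3) F} (h : rat E B = rat E P) : subfieldSubgroup E B = subfieldSubgroup E P := by
  ext g; rw [sub_iff, sub_iff, h]

theorem exists_scalar_sub [Finite F] (hf : HForm σ 1 f) (hP : IsFormRationalStructure f E 1 P) {θ : F}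
    (h1 : θ ∈ E) (h2 : θ + σ θ = 1) :
    ∃ c ∈ E, c ≠ 0 ∧ ∃ B : GL (Fin 3) F, grm f B = c • 1 ∧ rat E B = rat E P := by
  have hΓ := hf.rational_iff.mp hP
  simp only [one_mul] at hΓ
  let τ : E →+* E := (σ.comp E.subtype).codRestrict E fun x => map_mem_subfield σ x.2
  let Γ : Matrix (Fin 3) (Fin 3) E := fun i j => ⟨_, hΓ i j⟩
  have e1 : Γ.map E.subtype = grm f P := rfl
  have h3 := hf.hform_grm P
  have h4 : HForm τ 1 (frm τ Γ) := hform_frm (fun x => Subtype.ext (hf.invol x)) (by simp) (by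
    have := h3.isUnit_det
    rw [gram_frm, ← e1, ← RingHom.mapMatrix_apply, ← RingHom.map_det] at this
    exact (mt (fun h => by rw [h, map_zero]) this.ne_zero |> Ne.isUnit)) (by
    have := h3.gram_herm
    rw [gram_frm] at this
    ext i j
    exact congrFun (congrFun this i) j)
  obtain ⟨c, c0, Q, hQ⟩ := exists_scalar h4 fun h h5 => by
    have h6 : σ θ = θ := congrArg Subtype.val (RingHom.congr_fun h ⟨θ, h1⟩)
    have h7 : (2 : F) = 0 := congrArg Subtype.val h5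
    exact one_ne_zero (α := F) (by rw [← h2, h6, ← two_mul, h7, zero_mul])
  refine ⟨c, c.2, by simpa using c0, P * GeneralLinearGroup.map E.subtype Q, ?_, rat_mul fun i j => (Q.1 i j).2⟩
  rw [← one_mul Q, grm_mul h4, show grm (frm τ Γ) 1 = Γ from by
    conv_rhs => rw [← gram_frm τ Γ]
    ext i j; rw [grm_apply, Units.val_one, one_mulVec, one_mulVec]; rfl] at hQ
  have h5 := congrArg (fun X => X.map E.subtype) hQ
  simp only [Matrix.map_mul, e1] at h5
  rw [grm_mul hf]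
  refine Eq.trans rfl (h5.trans ?_)
  ext i j; simp [one_apply]; split_ifs <;> simp

/-- the hyperbolic Gram matrix -/
def hyp (δ : F) : Matrix (Fin 3) (Fin 3) F := !![0, 0, 1; 0, δ, 0; 1, 0, 0]

theorem exists_hyp [Finite F] (hf : HForm σ 1 f) (hP : IsFormRationalStructure f E 1 P) {θ : F}
    (h1 : θ ∈ E) (h2 : θ + σ θ = 1) :
    ∃ δ ∈ E, δ ≠ 0 ∧ σ δ = δ ∧ ∃ B : GL (Fin 3) F, grm f B = hyp δ ∧ rat E B = rat E P := by
  obtain ⟨c, c1, c0, B, h3, h4⟩ := exists_scalar_sub hf hP h1 h2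
  have c2 : σ c = c := by
    have h5 := congrFun (congrFun h3 0) 0
    have h6 := hf.herm (B.1 *ᵥ Pi.single 0 1) (B.1 *ᵥ Pi.single 0 1)
    rw [grm_apply] at h5
    rw [h5] at h6
    simpa using h6.symm
  obtain ⟨p, hp⟩ := CharP.exists F
  have : NeZero p := ⟨CharP.char_ne_zero_of_finite F p⟩
  obtain ⟨a, b, hab⟩ := CharP.sq_add_sq F p (-1)
  push_cast at hab
  let Q : GL (Fin 3) F := GeneralLinearGroup.mkOfDetNeZero
    !![1, 0, (1 - θ) * c⁻¹; a, b, -θ * c⁻¹ * a; b, -a, -θ * c⁻¹ * b] (by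
      rw [show Matrix.det _ = c⁻¹ by simp [det_fin_three]; linear_combination (-c⁻¹) * hab]
      exact inv_ne_zero c0)
  have hQ : Q.1 = !![1, 0, (1 - θ) * c⁻¹; a, b, -θ * c⁻¹ * a; b, -a, -θ * c⁻¹ * b] := rfl
  refine ⟨-c, neg_mem c1, neg_ne_zero.mpr c0, by rw [map_neg, c2], B * Q, ?_, (rat_mul fun i j => ?_).trans h4⟩
  · rw [grm_mul hf, h3, hQ]
    have h5 : σ θ = 1 - θ := by linear_combination h2
    ext i j
    fin_cases i <;> fin_cases j <;> simp [hyp, Matrix.mul_apply, Fin.sum_univ_three, h5, c2] <;>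
      field_simp <;> first | ring1 | linear_combination hab | linear_combination c * hab | linear_combination (θ - 1) * hab | linear_combination (-θ) * hab | linear_combination (θ * (1 - θ)) * hab | skip
  · have := inv_mem c1
    have := E.one_mem
    have := natCast_mem E a
    have := natCast_mem E b
    rw [hQ]
    fin_cases i <;> fin_cases j <;> simp <;> aesop

end Cfsg.Agent.MiU
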