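import Cfsg.Agent.MiU.R3

/-!
Normalisers of extraspecial subgroups of `SU₃(q)`.
-/

set_option autoImplicit false

namespace Cfsg.Agent.MiU

open Cfsg.Geo Matrix Cfsg.Agent.H18 Cfsg.Agent.H18.Mi Module

theorem eight_dvd' {G : Type*} [Group G] [Finite G] {x y : G} (h1 : x * x * (x * x) = 1) (h2 : x * x ≠ 1)
    (h3 : y * y = x * x) (h4 : x * y * x = y) : 8 ∣ Nat.card G := by
  have := Fact.mk Nat.prime_two
  have a1 : orderOf x = 2 ^ 2 := orderOf_eq_prime_pow (by simpa [sq] using h2) (by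
    simpa [pow_succ, mul_assoc] using h1)
  have a2 : y * x * y⁻¹ = x⁻¹ := by rw [mul_inv_eq_iff_eq_mul, eq_inv_mul_iff_mul_eq, ← mul_assoc, h4]
  have a3 : y ∈ Subgroup.normalizer (Subgroup.zpowers x : Set G) := Subgroup.mem_normalizer_fintype (by
    rintro _ ⟨k, rfl⟩
    rw [← conj_zpow, a2]
    exact zpow_mem (inv_mem (Subgroup.mem_zpowers x)) k)
  let N := Subgroup.normalizer (Subgroup.zpowers x : Set G)
  have a4 : orderOf (QuotientGroup.mk ⟨y, a3⟩ : N ⧸ (Subgroup.zpowers x).subgroupOf N) = 2 := orderOf_eq_prime (by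
    rw [← QuotientGroup.mk_pow, QuotientGroup.eq_one_iff, Subgroup.mem_subgroupOf, sq, Subgroup.coe_mul, h3]
    exact mul_mem (Subgroup.mem_zpowers x) (Subgroup.mem_zpowers x)) fun h => by
      obtain ⟨k, hk⟩ := (QuotientGroup.eq_one_iff _).mp h
      have hk' : x ^ k = y := hk
      rw [← hk', ((Commute.refl x).zpow_left k).eq, mul_inv_cancel_right] at a2
      exact h2 (by nth_rw 2 [a2]; exact mul_inv_cancel x)
  have a5 := ((Subgroup.zpowers x).subgroupOf N).card_eq_card_quotient_mul_card_subgroup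
  rw [Nat.card_congr (Subgroup.subgroupOfEquivOfLe Subgroup.le_normalizer).toEquiv, Nat.card_zpowers, a1] at a5
  exact (a5 ▸ mul_dvd_mul_right (a4 ▸ orderOf_dvd_natCard _) _ : 2 * 2 ^ 2 ∣ Nat.card N).trans
    (Subgroup.card_subgroup_dvd_card N)

theorem perm3' (x y : Equiv.Perm (Fin 3)) (h : y ^ 3 = 1) (h1 : y * (x * x) * y = x * x) : y = 1 := by
  revert x y; decide

variable {F : Type*} [Field F] [Fintype F] {q : ℕ} {R : Subgroup (GL (Fin 3) F)}

theorem RD.le_su' (hF : Fintype.card F = q ^ 2) (h : RD q R) : R ≤ GU 3 F q := fun g hg u v => by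
  obtain ⟨c, hc⟩ := h.sim hg
  have hf := hform hF
  obtain ⟨x, hx⟩ : ∃ x, hermForm 3 F q x (Pi.single 0 1) ≠ 0 := by
    by_contra! h1
    simpa using congrFun (hf.nondeg _ h1) 0
  have a1 : c.1 ^ 3 = 1 := mul_right_cancel₀ hx (by
    have := congrArg Units.val (h.r3.cube g hg)
    rw [pow_three, Units.val_mul, Units.val_mul, Units.val_one] at this
    rw [pow_three, mul_assoc, mul_assoc, ← hc, ← hc, ← hc, one_mul]
    simp only [mulVec_mulVec, Matrix.mul_assoc, this, one_mulVec])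
  have a2 : c.1 ^ q = c := mul_right_cancel₀ hx (by
    have := hf.herm (g.1 *ᵥ x) (g.1 *ᵥ Pi.single 0 1)
    rw [hc, hc, map_mul, one_mul] at this
    rw [this, hf.herm x, one_mul]; rfl)
  rw [pow_eq_pow_mod q a1, h.mod, sq, mul_eq_left₀ c.ne_zero] at a2
  change hermForm 3 F q (g.1 *ᵥ u) (g.1 *ᵥ v) = _
  rw [hc, a2, one_mul]

theorem RD.std' (hF : Fintype.card F = q ^ 2) (h : RD q R) {w : Fˣ} (hw : IsPrimitiveRoot w.1 3) :
    ∃ B : GL (Fin 3) F, grm (hermForm 3 F q) B = 1 ∧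
      H28.X3 R (MulAut.conj B (dg (1, w))) (MulAut.conj B cy) w.1 := by
  have hf := hform hF
  obtain ⟨a, b, E⟩ : ∃ a b, H28.X3 R a b w.1 := by
    obtain ⟨a, b, ω, E⟩ := H28.exists_x3 (κ := Fin 3) (by simp) hw h.card h.symp.exponent_eq fun hc => by
      obtain ⟨x, hx, h1⟩ := h.r3.nab
      exact h1 (h.r3.cen x fun z hz => congrArg Subtype.val (hc.is_comm.comm ⟨z, hz⟩ ⟨x, hx⟩))
    obtain ⟨k, k1, rfl⟩ := hw.eq_pow_of_pow_eq_one E.prim.pow_eq_one
    interval_cases k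
    · exact absurd (pow_zero _) (E.prim.ne_one (by decide))
    · exact ⟨a, b, pow_one w.1 ▸ E⟩
    · exact ⟨b, a, E.dim, hw, E.hb, E.ha, by rw [E.rel, smul_smul, ← pow_succ', hw.pow_eq_one, one_smul],
        Set.pair_comm a b ▸ E.gen⟩
  obtain ⟨v, h1, h2, h3, h4⟩ := E.basis
  have ha := h.le_su' hF E.mem_a
  have hb := h.le_su' hF E.mem_b
  have w1 : H12.frobq hF w = w ^ 2 := by rw [H12.frobq_apply, pow_eq_pow_mod q hw.pow_eq_one, h.mod]
  have w2 := hw.geom_sum_eq_zero (by decide)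
  have w3 := hw.pow_eq_one
  have w4 := sub_ne_zero.mpr (hw.ne_one (by decide))
  simp only [Finset.sum_range_succ, Finset.range_zero, Finset.sum_empty] at w2
  have o1 : ∀ i j, i ≠ j → hermForm 3 F q (v i) (v j) = 0 := fun i j hij => by
    have := ha (v i) (v j)
    change hermForm 3 F q (a.1 *ᵥ _) (a.1 *ᵥ _) = _ at this
    rw [h1, h1, hf.smul_left, hf.smul_right, map_pow, w1, ← mul_assoc, ← sub_eq_zero, ← sub_one_mul,
      mul_eq_zero, ← pow_mul, ← pow_add, sub_eq_zero, hw.pow_eq_one_iff_dvd] at this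
    exact this.resolve_left ((by decide : ∀ i j : Fin 3, i ≠ j → ¬ 3 ∣ (i : ℕ) + 2 * j) i j hij)
  have o2 : ∀ i, hermForm 3 F q (v i) (v i) = hermForm 3 F q (v 0) (v 0) := fun i => by
    have b0 := hb (v 0) (v 0)
    have b1 := hb (v 1) (v 1)
    change hermForm 3 F q (b.1 *ᵥ _) (b.1 *ᵥ _) = _ at b0 b1
    rw [h2] at b0
    rw [h3] at b1
    fin_cases i
    exacts [rfl, b0, b1.trans b0]
  have o3 : hermForm 3 F q (v 0) (v 0) ≠ 0 := fun h0 => v.ne_zero 0 (hf.nondeg _ fun x => by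
    rw [← v.sum_repr x, hf.sum_left]
    refine Finset.sum_eq_zero fun i _ => ?_
    rw [hf.smul_left]
    by_cases hi : i = 0
    · rw [hi, h0, mul_zero]
    · rw [o1 i 0 hi, mul_zero])
  obtain ⟨s, hs⟩ := H13.exists_conj_mul_eq (H12.frobq_ne_id hF) (H12.frobq_frobq hF)
    (c := (hermForm 3 F q (v 0) (v 0))⁻¹) (by rw [map_inv₀, ← one_mul (H12.frobq hF _), ← hf.herm])
  have s0 : s ≠ 0 := by rintro rfl; exact inv_ne_zero o3 (by rw [← hs, mul_zero])
  obtain ⟨B, hB⟩ := exists_P_of_basis (v.unitsSMul fun _ => Units.mk0 s s0)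
  simp only [Basis.unitsSMul_apply, Units.smul_def, Units.val_mk0] at hB
  have key : ∀ (g X : GL (Fin 3) F), (∀ i, g.1 *ᵥ v i = ∑ j, X.1 j i • v j) → MulAut.conj B X = g := fun g X hX =>
    Units.ext (H28.mat_ext_basis (v.unitsSMul fun _ => Units.mk0 s s0) fun i => by
      simp only [Basis.unitsSMul_apply, Units.smul_def, Units.val_mk0]
      rw [MulAut.conj_apply, ← cj_coe, ← hB, cj_mulVec, hB, mulVec_smul, hX, mulVec_single_one,
        pi_eq_sum_univ' (X.1.col i), mulVec_sum, Finset.smul_sum]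
      refine Finset.sum_congr rfl fun j _ => ?_
      rw [mulVec_smul, hB, smul_comm]; rfl)
  refine ⟨B, Matrix.ext fun i j => ?_, ?_⟩
  · rw [grm_apply, hB, hB, hf.smul_left, hf.smul_right, one_apply]
    split_ifs with hij
    · rw [hij, o2, ← mul_assoc, mul_comm s, hs, inv_mul_cancel₀ o3]
    · rw [o1 i j hij, mul_zero, mul_zero]
  · rw [key a _ fun i => ?_, key b _ fun i => ?_]
    · exact E
    · fin_cases i <;> simp [cy_val, Fin.sum_univ_three, h2, h3, h4]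
    · have : w.1⁻¹ = w.1 ^ 2 := inv_eq_of_mul_eq_one_right (by rw [← pow_succ', w3])
      fin_cases i <;> simp [dg_val, Fin.sum_univ_three, h1, this]

theorem norm_of' {a b g : GL (Fin 3) F} {ω : F} (E : H28.X3 R a b ω) (h1 : ∃ h ∈ R, g * a = h * g)
    (h2 : ∃ h ∈ R, g * b = h * g) : g ∈ subgroupNormalizer R := Subgroup.mem_normalizer_fintype fun x hx => by
  obtain ⟨h, h3, h4⟩ := E.ns (M := g.1) (h1.imp fun _ h => ⟨h.1, congrArg Units.val h.2⟩)
    (h2.imp fun _ h => ⟨h.1, congrArg Units.val h.2⟩) x hx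
  rw [show g * x = h * g from Units.ext h4, mul_inv_cancel_right]; exact h3

set_option maxHeartbeats 6400000 in
theorem exists_q8' (hF : Fintype.card F = q ^ 2) {w : Fˣ} (hw : IsPrimitiveRoot w.1 3)
    (w1 : H12.frobq hF w = w ^ 2) : ∃ φ d j z : GL (Fin 3) F, φ.1ᵀ * φ.1.map (H12.frobq hF) = 1 ∧ φ.1.det = 1 ∧
      d.1ᵀ * d.1.map (H12.frobq hF) = 1 ∧ φ * dg (1, w) = cy⁻¹ * φ ∧ φ * cy = dg (1, w) * φ ∧
      d * dg (1, w) = dg (1, w) * d ∧ z.1 = w.1 ^ 2 • 1 ∧ d * cy = z * cy * dg (1, w) * d ∧ φ * φ = j ∧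
      j * j = 1 ∧ j ∉ scalars (Fin 3) F ∧ dg (1, w) * j * dg (1, w) = j ∧ cy * j * cy = j ∧ d * j = j * d ∧
      φ * (d * φ * d⁻¹) * φ = d * φ * d⁻¹ := by
  have w2 : w.1 ^ 2 + w + 1 = 0 := by
    have := hw.geom_sum_eq_zero (by decide)
    simp only [Finset.sum_range_succ, Finset.range_zero, Finset.sum_empty] at this
    linear_combination this
  have w3 := hw.pow_eq_one
  have w4 : w.1 - w.1 ^ 2 ≠ 0 := by
    rw [show w.1 - w.1 ^ 2 = -(w * (w - 1)) by ring]
    exact neg_ne_zero.mpr (mul_ne_zero w.ne_zero (sub_ne_zero.mpr (hw.ne_one (by decide))))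
  have w5 : w.1⁻¹ = w.1 ^ 2 := inv_eq_of_mul_eq_one_right (by rw [← pow_succ', w3])
  obtain ⟨t, ht⟩ : ∃ t : F, t * (w - w ^ 2) = 1 := ⟨_, inv_mul_cancel₀ w4⟩
  have t1 : 3 * t ^ 2 = -1 := by grind
  have t2 : H12.frobq hF t = -t := mul_right_cancel₀ w4 (by
    have := congrArg (H12.frobq hF) ht
    rw [map_mul, map_sub, map_pow, w1, map_one] at this
    grind)
  have e : (!![t, t, t; t, t * w, t * w ^ 2; t, t * w ^ 2, t * w] : Matrix (Fin 3) (Fin 3) F).det = 1 := by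
    simp [det_fin_three]; grind
  let d : GL (Fin 3) F := ⟨!![w, 0, 0; 0, 1, 0; 0, 0, 1], !![w ^ 2, 0, 0; 0, 1, 0; 0, 0, 1],
    by ext i j; fin_cases i <;> fin_cases j <;> simp [Matrix.mul_apply, Fin.sum_univ_three]; grind,
    by ext i j; fin_cases i <;> fin_cases j <;> simp [Matrix.mul_apply, Fin.sum_univ_three]; grind⟩
  let j : GL (Fin 3) F := ⟨!![-1, 0, 0; 0, 0, -1; 0, -1, 0], !![-1, 0, 0; 0, 0, -1; 0, -1, 0],
    by ext i j; fin_cases i <;> fin_cases j <;> simp [Matrix.mul_apply, Fin.sum_univ_three],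
    by ext i j; fin_cases i <;> fin_cases j <;> simp [Matrix.mul_apply, Fin.sum_univ_three]⟩
  have d1 : d.1 = !![w.1, 0, 0; 0, 1, 0; 0, 0, 1] := rfl
  have d2 : (d⁻¹).1 = !![w.1 ^ 2, 0, 0; 0, 1, 0; 0, 0, 1] := rfl
  have j1 : j.1 = !![-1, 0, 0; 0, 0, -1; 0, -1, 0] := rfl
  have c1 : (cy⁻¹ : GL (Fin 3) F).1 = !![0, 1, 0; 0, 0, 1; 1, 0, 0] := rfl
  obtain ⟨φ, hφ⟩ : ∃ φ : GL (Fin 3) F, φ.1 = !![t, t, t; t, t * w, t * w ^ 2; t, t * w ^ 2, t * w] :=
    ⟨GeneralLinearGroup.mkOfDetNeZero _ (e.trans_ne one_ne_zero), rfl⟩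
  obtain ⟨z, hz⟩ : ∃ z : GL (Fin 3) F, z.1 = w.1 ^ 2 • 1 := ⟨sc _ (w ^ 2), by rw [sc_coe, Units.val_pow_eq_pow_val]⟩
  clear_value d j
  refine ⟨φ, d, j, z, ?_, hφ ▸ e, ?_, Units.ext ?_, Units.ext ?_, Units.ext ?_, hz,
    Units.ext ?_, Units.ext ?_, Units.ext ?_, not_scalar (i := 1) (j := 2) (by decide) (by simp [j1]),
    Units.ext ?_, Units.ext ?_, Units.ext ?_, Units.ext ?_⟩ <;>
  simp only [Units.val_mul, d1, d2, j1, c1, hφ, hz, dg_val, cy_val, Units.val_one, one_mul, w5] <;>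
  ext i j <;> fin_cases i <;> fin_cases j <;>
    simp [Matrix.mul_apply, Fin.sum_univ_three, w1, t2, one_apply] <;> grind

set_option maxHeartbeats 800000 in
theorem row7b (hF : Fintype.card F = q ^ 2) (h : RD q R) : ¬ SU3 F q ≤ subgroupNormalizer R ∧
    ∀ H, H ≤ SU3 F q → Col q H → subgroupNormalizer R ⊓ SU3 F q ≤ H → H ≤ subgroupNormalizer R := by
  have q1 := h.le
  have q2 := h.mod
  have := charP_of_prime hF h.prime
  refine ⟨fun hle => ?_, fun H hH hc hM => ?_⟩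
  · obtain ⟨a, hf⟩ := H12.exists_tvF_su hF (n := 3) (by decide)
    obtain ⟨g, g1, g2, g3⟩ : ∃ g ∈ SU3 F q, (g.1 - 1) * (g.1 - 1) = 0 ∧ g ≠ 1 := by
      obtain ⟨w, w0, hw⟩ := hf.iso
      refine ⟨hf.ft a hw, H12.has_SU hf w hw, hf.ft_sqz a hw, fun e => w0 (hf.nondeg w fun u => ?_)⟩
      simpa [e, w0, hf.ne] using hf.ft_mulVec a hw u
    have g4 : g ^ q = 1 := Units.ext (by
      simpa using pow_unip (X := g.1) (by rw [pow_three, g2, mul_zero]) h.prime (k := 1) (by rw [pow_one]; omega))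
    exact g3 ((pow_eq_one_iff_of_coprime ((Nat.coprime_primes h.prime Nat.prime_three).mpr (by omega))).mp
      ⟨g4, MiX.cube_of_scalar (h.r3.scalar_of_prime h.prime (by omega) (hle g1) g4) g1.2⟩)
  obtain ⟨ω, hw⟩ := H28.exists_prim (F := F) (r := 3) (by
    rw [hF]; exact (Nat.modEq_iff_dvd' (Nat.one_le_pow _ _ (by omega))).1 (by simp [Nat.ModEq, Nat.pow_mod, q2]))
  obtain ⟨w, rfl⟩ := hw.isUnit (by decide)
  have w1 : H12.frobq hF w = w ^ 2 := by rw [H12.frobq_apply, pow_eq_pow_mod q hw.pow_eq_one, h.mod]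
  obtain ⟨B, hB, E⟩ := h.std' hF hw
  obtain ⟨φ, d, j, z, a1, a2, a3, a4, a5, a6, a7, a8, a9, b1, b2, b3, b4, b5, b6⟩ := exists_q8' hF hw w1
  set c := MulAut.conj B with hc'
  have hR : R ≤ subgroupNormalizer R ⊓ SU3 F q := le_inf Subgroup.le_normalizer (le_inf (h.le_su' hF) E.le_sl)
  have c1 : c φ ∈ subgroupNormalizer R ⊓ SU3 F q := ⟨norm_of' E ⟨_, inv_mem E.mem_b, by
    rw [← map_mul, a4, map_mul, map_inv]⟩ ⟨_, E.mem_a, by rw [← map_mul, a5, map_mul]⟩,
    mem_SU3 hF (by rw [hB, mul_one]; exact a1) a2⟩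
  have c2 : c z ∈ R := by
    obtain ⟨y, y1, y2⟩ := E.exists_sc (c := w.1 ^ 2) (by rw [← pow_mul, mul_comm, pow_mul, hw.pow_eq_one, one_pow])
    rwa [MulAut.conj_apply, ← scalars_comm (mem_scalars_of_eq_smul a7), mul_inv_cancel_right,
      show z = y from Units.ext (a7.trans y2.symm)]
  have c3 : c d ∈ subgroupNormalizer R := norm_of' E ⟨_, E.mem_a, by rw [← map_mul, a6, map_mul]⟩
    ⟨_, mul_mem (mul_mem c2 E.mem_b) E.mem_a, by rw [← map_mul, a8, map_mul, map_mul, map_mul]⟩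
  have c4 : c d * c φ * (c d)⁻¹ ∈ subgroupNormalizer R ⊓ SU3 F q :=
    ⟨(subgroupNormalizer R).mul_mem ((subgroupNormalizer R).mul_mem c3 c1.1) ((subgroupNormalizer R).inv_mem c3),
      conj_mem_SU3 ((hform hF).mem_isoG_of_grm (by rw [hB, mul_one]; exact a3)) c1.2⟩
  have c5 : c j ∉ scalars (Fin 3) F := fun e => b2 (conj_scalar e)
  have c6 : c φ * c φ = c j := by rw [← map_mul, a9]
  have c7 : c j * c j = 1 := by rw [← map_mul, b1, map_one]
  have c8 : c (dg (1, w)) * c cy * (c (dg (1, w)))⁻¹ * (c cy)⁻¹ = sc _ w := by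
    rw [mul_inv_eq_iff_eq_mul, mul_inv_eq_iff_eq_mul]
    exact Units.ext (by rw [Units.val_mul, E.rel, Units.val_mul, Units.val_mul, sc_coe]; simp)
  have ma := hM (hR E.mem_a)
  have mb := hM (hR E.mem_b)
  rcases hc with hc | ⟨D, hD, rfl⟩ | ⟨K, hK, rfl⟩ | ⟨E', r, P, hr, hE, rfl⟩ | ⟨R', hR', rfl⟩ | ⟨-, hc⟩
  · exact absurd (((irr_iff R).mpr h.abs.1).mono (hR.trans hM)) hc.not_irr
  · exfalso
    obtain ⟨π, h1, -⟩ := imp_of_dec hD.decomp (inf_le_left (b := SU3 F q))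
    have key : ∀ (x : GL (Fin 3) F) (hx : x ∈ R), x * c j * x = c j → π ⟨x, hM (hR hx)⟩ = 1 := fun x hx e =>
      perm3' (π ⟨_, hM c1⟩) _ (by rw [← map_pow, ← map_one π]; exact congrArg π (Subtype.ext (h.r3.cube x hx))) (by
        rw [← map_mul, ← map_mul, ← map_mul]
        exact congrArg π (Subtype.ext (by simpa [c6] using e)))
    have e1 := congrArg Subtype.val (h1 _ _ (key _ E.mem_a (by rw [← map_mul, ← map_mul, b3]))
      (key _ E.mem_b (by rw [← map_mul, ← map_mul, b4])))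
    simp only [Subgroup.coe_mul] at e1
    rw [e1, mul_inv_cancel_right, mul_inv_cancel] at c8
    have e2 := congrArg (fun g : GL (Fin 3) F => g.1 0 0) c8
    simp only [sc_coe, Units.val_one, Matrix.smul_apply, one_apply_eq, smul_eq_mul, mul_one] at e2
    exact hw.ne_one (by decide) e2.symm
  · exact absurd (inv_scalar hK (c6 ▸ hM (mul_mem c1 c1)).1 c7) c5
  · exfalso
    have e1 := rat_comm ma.1 mb.1
    rw [c8, sc_coe] at e1
    have e2 := (mem_subfield_iff_pow _ _).mp (mem_of_rat (one_mem _) one_ne_zero e1)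
    obtain ⟨k, k1, k2⟩ := (Nat.dvd_prime_pow h.prime).mp ((dvd_pow_self _ hr.ne_zero).trans (hE.symm.trans hF).dvd)
    have e3 := Finite.one_lt_card (α := E')
    have e4 := (Nat.pow_le_pow_right e3.le hr.two_le).trans (hE.symm.trans hF).le
    have e5 : k = 1 := by
      rw [k2] at e3 e4
      interval_cases k
      · simp at e3
      · rfl
      · rw [← pow_mul] at e4
        have := (Nat.pow_le_pow_iff_right h.prime.one_lt).mp e4
        omega
    rw [k2, e5, pow_one, ← H12.frobq_apply hF, w1, sq, mul_eq_left₀ w.ne_zero] at e2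
    exact hw.ne_one (by decide) e2
  · obtain ⟨B', hB', E'⟩ := hR'.std' hF hw
    have e1 : R = R'.map (MulAut.conj (B * B'⁻¹)).toMonoidHom := by
      rw [← E.gen, ← E'.gen, MonoidHom.map_closure, Set.image_pair]
      simp [hc', mul_assoc]
    refine (le_of_conj hM (B * B'⁻¹) fun g hg => ⟨?_,
      conj_mem_SU3 (mem_GU_of_grm hF (hB.trans hB'.symm)) hg.2⟩).trans inf_le_left
    rw [e1, subgroupNormalizer, ← Subgroup.map_equiv_normalizer_eq]
    exact ⟨g, hg.1, rfl⟩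
  · exfalso
    obtain ⟨S, _, ψ, hψ, h1⟩ := hc.resolve_left (by omega)
    let A := (subgroupNormalizer R ⊓ SU3 F q).subgroupOf H
    have e0 : Nat.card A = Nat.card ↥(subgroupNormalizer R ⊓ SU3 F q) :=
      Nat.card_congr (Subgroup.subgroupOfEquivOfLe hM).toEquiv
    have e1 := card_dvd_of_hom ψ hψ (hH.trans inf_le_right) A
    have e2 : 27 ∣ Nat.card A := by rw [e0, ← h.card]; exact Subgroup.card_dvd_of_le hR
    have e3 : 8 ∣ Nat.card A := by
      rw [e0]
      refine eight_dvd' (x := ⟨_, c1⟩) (y := ⟨_, c4⟩) (Subtype.ext (by simp [c6, c7]))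
        (fun e => c5 (by rw [← c6, show c φ * c φ = 1 from congrArg Subtype.val e]; exact one_mem _))
        (Subtype.ext ?_) (Subtype.ext ?_)
      · change _ * _ = c φ * c φ
        rw [show c d * c φ * (c d)⁻¹ * (c d * c φ * (c d)⁻¹) = c d * (c φ * c φ) * (c d)⁻¹ by group, c6, ← map_mul, b5,
          map_mul, mul_inv_cancel_right]
      · simpa using congrArg c b6
    have e4 : 72 ∣ Nat.card (A.map ψ) := Nat.dvd_of_mul_dvd_mul_left three_pos
      ((Nat.Coprime.mul_dvd_of_dvd_of_dvd (by decide) e2 e3).trans e1)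
    have e5 := (A.map ψ).card_mul_index
    rcases h1 with ⟨h1, -⟩ | ⟨h1, h2, -⟩
    · have := e4.trans (Subgroup.card_subgroup_dvd_card _)
      rw [h1] at this
      exact absurd this (by decide)
    have : Finite S := Nat.finite_of_card_ne_zero (by omega)
    obtain ⟨m, hm⟩ := e4
    have e6 : (A.map ψ).index ∣ 5 := ⟨m, by rw [hm, h1] at e5; nlinarith⟩
    rcases (Nat.dvd_prime Nat.prime_five).mp e6 with e7 | e7
    · rw [Subgroup.index_eq_one] at e7
      have e8 : ((R.subgroupOf H).map ψ).Normal := ⟨by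
        rintro _ ⟨x, hx, rfl⟩ g
        obtain ⟨y, hy, rfl⟩ := e7.ge (Subgroup.mem_top g)
        exact ⟨y * x * y⁻¹, (Subgroup.mem_normalizer_iff.mp hy.1 _).mp hx, by simp⟩⟩
      rcases e8.eq_bot_or_eq_top with e9 | e9
      · obtain ⟨x, hx, h3⟩ := h.r3.nab
        exact h3 (hψ ⟨x, hM (hR hx)⟩ (Subgroup.mem_bot.mp (e9.le ⟨_, hx, rfl⟩)))
      · have := Subgroup.card_map_dvd (R.subgroupOf H) ψ
        rw [e9, Subgroup.card_top, h1, Nat.card_congr (Subgroup.subgroupOfEquivOfLe (hR.trans hM)).toEquiv,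
          h.card] at this
        omega
    · rcases (A.map ψ).normalCore_normal.eq_bot_or_eq_top with e9 | e9
      · rw [Subgroup.normalCore_eq_ker, MonoidHom.ker_eq_bot_iff] at e9
        have := Subgroup.card_dvd_of_injective _ e9
        rw [Nat.card_perm, ← Subgroup.index, e7, h1] at this
        exact absurd this (by decide)
      · have := Subgroup.index_eq_one.mpr (eq_top_iff.mpr (e9.ge.trans (A.map ψ).normalCore_le))
        omega

end Cfsg.Agent.MiU
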