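import Cfsg.Agent.MiU.R2
import Cfsg.Agent.MiU.R3
import Cfsg.Agent.MiU.R4
import Cfsg.Agent.H12.SubE
import Cfsg.Agent.S5778
import Cfsg.Agent.MiX.L32
import Cfsg.Agent.MiX.Alt

/-!
Assembly of the maximality of the geometric subgroups of `SU₃(q)`.
-/

set_option autoImplicit false

namespace Cfsg.Agent.MiU

open Cfsg.Geo Matrix Cfsg.Agent.H18 Cfsg.Agent.H18.Mi Module

variable {F : Type*} [Field F] [Fintype F] {q : ℕ} {H : Subgroup (GL (Fin 3) F)}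

/-- the description of the residual class -/
def Res (q : ℕ) (H : Subgroup (GL (Fin 3) F)) : Prop :=
  ∃ P : Subgroup (GL (Fin 3) F), IsResidualCore H P ∧ q.Prime ∧
    ((Nonempty (PQ P ≃* ProjectiveSpecialLinearGroup (Fin 3) (ZMod 2)) ∧ q ≠ 5 ∧ (q % 7 = 3 ∨ q % 7 = 5 ∨ q % 7 = 6)) ∨
     (Nonempty (PQ P ≃* alternatingGroup (Fin 6)) ∧ (q % 15 = 11 ∨ q % 15 = 14 ∨ q = 5)) ∨
     (Nonempty (PQ P ≃* alternatingGroup (Fin 7)) ∧ q = 5))

theorem sp_of_res (hF : Fintype.card F = q ^ 2) (hH : H ≤ SU3 F q) (h : Res q H) : q.Prime ∧ (q = 5 ∨ Sp q H) := by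
  obtain ⟨P, hc, hq, h⟩ := h
  refine ⟨hq, or_iff_not_imp_left.mpr fun h5 => ?_⟩
  have c := Core.of_residual hc (hH.trans inf_le_right)
  have := charP_of_prime hF hq
  have nr : ¬ ∀ g ∈ P, trc g⁻¹ = trc g := fun h1 => by
    obtain ⟨E, e1, e2⟩ := exists_subfield_pow hq hF (d := 1) (by decide) (by decide)
    exact hc.no_subfield E e1 (realisableOver_of_trace c.span E fun x hx => (e2 _).mpr (by
      rw [pow_one]; exact (trc_inv hF (hH (hc.le hx)).1).symm.trans (h1 x hx)))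
  rcases h with ⟨⟨e⟩, -, h⟩ | ⟨⟨e⟩, h⟩ | h
  · obtain ⟨φ, hφ⟩ := exists_hom ((MiX.l32 c hc.normal e).resolve_left nr).2 e
    exact ⟨_, _, φ, hφ, .inl ⟨card_l32, by omega⟩⟩
  · obtain ⟨φ, hφ⟩ := exists_hom (((MiX.a6_norm c hc.normal e).resolve_left nr).2.1.resolve_right fun h1 =>
      h5 ((Nat.prime_dvd_prime_iff_eq hq Nat.prime_five).mp ((CharP.cast_eq_zero_iff F q 5).mp h1.1))) e
    have := hc.simple
    exact ⟨_, _, φ, hφ, .inr ⟨card_a6, e.symm.isSimpleGroup, by omega⟩⟩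
  · exact absurd h.2 h5

theorem col_of (hF : Fintype.card F = q ^ 2) (hq : 3 ≤ q) (hH : IsMaximalIn (SU3 F q) H)
    (h : InUnitaryResidualClass H → Res q H) : Col q H := by
  rcases S5778.result q hF hq H hH with ⟨W, h0, h1, rfl⟩ | ⟨W, h0, -, h1, rfl⟩ | ⟨-, h1⟩ | ⟨-, -, K, h1, -, h2⟩ |
    ⟨E, r, P, h1, -, h2, -, h3⟩ | ⟨-, -, E, P, h1, -, h2⟩ | ⟨p, R, a1, rfl, a2, a3, a4, a5, a6, a7, a8, a9⟩ | h1
  · refine .inl (red_of_line h0 ?_ inf_le_left)
    obtain ⟨a, hf⟩ := H12.exists_tvF_su hF (n := 3) (by decide)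
    have h2 := (H12.sd_tB hf).two_mul_finrank_le (W := W) fun u hu v hv => (H12.tB_eq_zero' hf).mpr (h1 u hu v hv)
    rw [finrank_fintype_fun_eq_card, Fintype.card_fin] at h2
    omega
  · exact .inl (red_of_line h0 (by omega) inf_le_left)
  · exact .inr (.inl h1)
  · exact .inr (.inr (.inl ⟨K, h1, h2⟩))
  · exact .inr (.inr (.inr (.inl ⟨E, r, P, h1, h2, h3⟩)))
  · exact .inr (.inr (.inr (.inl ⟨E, 2, P, Nat.prime_two, h1, h2⟩)))
  · exact .inr (.inr (.inr (.inr (.inl ⟨R, ⟨a1, a2, a3, a4, a5, a6, a7, a8⟩, a9⟩))))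
  · exact .inr (.inr (.inr (.inr (.inr (sp_of_res hF hH.1.le (h h1))))))

section
variable (hF : Fintype.card F = q ^ 2) (hq : 3 ≤ q)
  (hR : ∀ H : Subgroup (GL (Fin 3) F), IsMaximalIn (SU3 F q) H → InUnitaryResidualClass H → Res q H)
include hF hq hR

theorem max_col {S : Subgroup (GL (Fin 3) F)} (h1 : ¬ SU3 F q ≤ S)
    (h : ∀ H, H ≤ SU3 F q → Col q H → S ⊓ SU3 F q ≤ H → H ≤ S) : IsMaximalIn (SU3 F q) (S ⊓ SU3 F q) :=
  max_of h1 fun H hH => h H hH.1.le (col_of hF hq hH (hR H hH))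

theorem max3 (h5 : q ≠ 5) {D : Fin 3 → Submodule F (Fin 3 → F)}
    (hD : IsNondegenerateMDecomposition (hermForm 3 F q) 1 D) :
    IsMaximalIn (SU3 F q) (decompositionStabilizer D ⊓ SU3 F q) :=
  max_col hF hq hR (row3 hF hq h5 hD).1 (row3 hF hq h5 hD).2

theorem max4 (h3 : q ≠ 3) (h5 : q ≠ 5) {K : Subalgebra F (Matrix (Fin 3) (Fin 3) F)} (hK : IsFieldSubalgebra 3 K)
    (ha : IsAdjointClosedFor (hermForm 3 F q) K) : IsMaximalIn (SU3 F q) (subalgebraNormalizer K ⊓ SU3 F q) :=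
  max_col hF hq hR ((H12.exists_tvF_su hF (n := 3) (by decide)).elim fun _ hf =>
    H12.iso_not_le_field hf (by decide) hK (by simp)) (row4 hF hq h3 h5 hK ha)

theorem max5 {E : Subfield F} {r : ℕ} {P : GL (Fin 3) F} (hr : r.Prime) (ho : Odd r)
    (hE : Fintype.card F = Nat.card E ^ r) (hP : IsFormRationalStructure (hermForm 3 F q) E 1 P) :
    IsMaximalIn (SU3 F q) (subfieldSubgroup E P ⊓ SU3 F q) := by
  obtain ⟨_, hf⟩ := H12.exists_tvF_su hF (n := 3) (by decide)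
  obtain ⟨t, h1, h2⟩ := H12.exists_ne_of_odd (H12.frobq_ne_id hF) (H12.frobq_frobq hF) ho hE
  have hσ : ∀ x ∈ E, H12.frobq hF x ∈ E := fun x hx => map_mem_subfield _ hx
  let τ : E →+* E := ((H12.frobq hF).comp E.subtype).codRestrict E fun x => hσ _ x.2
  have h3 : τ ≠ RingHom.id E := fun h => h2 (congrArg Subtype.val (RingHom.congr_fun h ⟨t, h1⟩))
  have h4 : ∀ x, τ (τ x) = x := fun x => Subtype.ext (H12.frobq_frobq hF x)
  obtain ⟨θ, hθ⟩ := H13.exists_add_conj_eq h3 h4 (c := 1) (map_one τ)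
  have := Fintype.ofFinite E
  obtain ⟨s, hs⟩ : ∃ s, Nat.card E = s ^ 2 := by
    obtain ⟨p, hp⟩ := CharP.exists E
    obtain ⟨a, a1, a2⟩ := FiniteField.card E p
    obtain ⟨p', j, b1, -, rfl⟩ := H12.exists_pow_of_card_eq_sq hF
    rw [Nat.card_eq_fintype_card, a2] at hE ⊢
    rw [hF, ← pow_mul, ← pow_mul] at hE
    obtain ⟨-, b2⟩ := b1.pow_inj' a1 (by
      rintro h; rw [show j = 0 by omega, pow_zero] at hq; omega) (by
      simp [hr.ne_zero]) hE
    obtain ⟨c, hc⟩ := (Nat.prime_two.dvd_mul.mp ⟨j, b2.symm.trans (mul_comm _ _)⟩).resolve_right ho.not_two_dvd_nat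
    exact ⟨p ^ c, by rw [hc, mul_comm, pow_mul]⟩
  have h5 : 2 ≤ s := by
    have := Finite.one_lt_card (α := E)
    by_contra! h
    interval_cases s <;> omega
  refine max_col hF hq hR ((H12.has_SU hf).not_le_subfield (by simp) (ne_top_of_card_eq_pow hr hE) P)
    (row56 hF hr hE hP θ.2 (congrArg Subtype.val hθ) (fun h => ?_) (.inr ⟨by nlinarith, t - H12.frobq hF t,
      sub_mem h1 (hσ _ h1), sub_ne_zero.mpr h2.symm, by simp [H12.frobq_frobq]⟩))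
  rw [hF, hs, ← pow_mul, mul_comm, pow_mul] at hE
  have h6 := Nat.pow_left_injective two_ne_zero hE
  exact absurd (h6 ▸ h : (s ^ r).Prime).eq_one_of_pow hr.ne_one

theorem max6 (ho : Odd q) (h7 : 7 ≤ q) {E : Subfield F} {P : GL (Fin 3) F}
    (hE : Fintype.card F = Nat.card E ^ 2) (hP : IsFormRationalStructure (hermForm 3 F q) E 1 P) :
    IsMaximalIn (SU3 F q) (subfieldSubgroup E P ⊓ SU3 F q) := by
  obtain ⟨_, hf⟩ := H12.exists_tvF_su hF (n := 3) (by decide)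
  have h2 : (2 : F) ≠ 0 := two_ne_zero_iff_odd.mpr (hF ▸ ho.pow)
  exact max_col hF hq hR ((H12.has_SU hf).not_le_subfield (by simp) (ne_top_of_card_eq_pow Nat.prime_two hE) P)
    (row56 hF Nat.prime_two hE hP (θ := 2⁻¹) (inv_mem (ofNat_mem E 2)) (by
      rw [map_inv₀, map_ofNat]; field_simp; norm_num) (fun _ => h7)
      (.inl (h7.trans (Nat.pow_left_injective two_ne_zero (hF.symm.trans hE)).le)))

end

end Cfsg.Agent.MiU
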